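import Mathlib
import Cfsg.Agent.S4221
import Cfsg.Agent.S0743
import Cfsg.Agent.S0698

/-! Tools for quadruply transitive groups: fixed point congruences, restriction to invariant
subsets, M. Hall's theorem and Gleason's lemma in relative form. -/

set_option autoImplicit false
set_option linter.unusedSectionVars false
set_option linter.style.haveILetI false

namespace Cfsg.Agent.Fr4

open Subgroup MulAction Cfsg.Agent.Perm Cfsg.Agent.Perm.Hall4 Finset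
open scoped Pointwise

/-- Four pairwise distinct points. -/
def D4 {Ω : Type*} (a b c d : Ω) : Prop := a ≠ b ∧ a ≠ c ∧ a ≠ d ∧ b ≠ c ∧ b ≠ d ∧ c ≠ d

/-- Four pairwise distinct points of `Γ`. -/
def In4 {Ω : Type*} (Γ : Finset Ω) (a b c d : Ω) : Prop :=
  D4 a b c d ∧ a ∈ Γ ∧ b ∈ Γ ∧ c ∈ Γ ∧ d ∈ Γ

variable {G Ω : Type*} [Group G] [MulAction G Ω]

/-- `N` is quadruply transitive on `Γ`. -/
def Tr4 (N : Subgroup G) (Γ : Finset Ω) : Prop :=
  ∀ a b c d a' b' c' d' : Ω, In4 Γ a b c d → In4 Γ a' b' c' d' →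
    ∃ g ∈ N, g • a = a' ∧ g • b = b' ∧ g • c = c' ∧ g • d = d'

theorem D4.card [DecidableEq Ω] {a b c d : Ω} (h : D4 a b c d) :
    ({a, b, c, d} : Finset Ω).card = 4 := by
  obtain ⟨h1, h2, h3, h4, h5, h6⟩ := h
  rw [card_insert_of_notMem (by simp [*]), card_insert_of_notMem (by simp [*]),
    card_pair h6]

theorem In4.le_card [DecidableEq Ω] {Γ : Finset Ω} {a b c d : Ω} (h : In4 Γ a b c d) :
    4 ≤ Γ.card := by
  rw [← h.1.card]
  apply card_le_card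
  intro x hx
  simp only [mem_insert, mem_singleton] at hx
  rcases hx with rfl | rfl | rfl | rfl
  exacts [h.2.1, h.2.2.1, h.2.2.2.1, h.2.2.2.2]

theorem In4.sub [DecidableEq Ω] {Γ : Finset Ω} {a b c d : Ω} (h : In4 Γ a b c d) :
    ({a, b, c, d} : Finset Ω) ⊆ Γ := by
  intro x hx
  simp only [mem_insert, mem_singleton] at hx
  rcases hx with rfl | rfl | rfl | rfl
  exacts [h.2.1, h.2.2.1, h.2.2.2.1, h.2.2.2.2]

theorem exists_D4 [DecidableEq Ω] {S : Finset Ω} (h : S.card = 4) :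
    ∃ a b c d, D4 a b c d ∧ S = {a, b, c, d} := by
  obtain ⟨a, T, ha, rfl, hT⟩ := card_eq_succ.1 h
  obtain ⟨b, c, d, h1, h2, h3, rfl⟩ := card_eq_three.1 hT
  simp only [mem_insert, mem_singleton, not_or] at ha
  exact ⟨a, b, c, d, ⟨ha.1, ha.2.1, ha.2.2, h1, h2, h3⟩, rfl⟩

theorem exists_In4 [DecidableEq Ω] {Γ : Finset Ω} (h : 4 ≤ Γ.card) :
    ∃ a b c d, In4 Γ a b c d := by
  obtain ⟨S, h1, h4⟩ := exists_subset_card_eq h
  obtain ⟨a, b, c, d, hd, rfl⟩ := exists_D4 h4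
  exact ⟨a, b, c, d, hd, h1 (by simp), h1 (by simp), h1 (by simp), h1 (by simp)⟩

/-- A point of `Γ` outside a smaller finset. -/
theorem exists_not_mem [DecidableEq Ω] {Γ S : Finset Ω} (h : S.card < Γ.card) :
    ∃ x ∈ Γ, x ∉ S := by
  by_contra hc
  push Not at hc
  exact absurd (card_le_card hc) (by omega)

open Classical in
/-- Fixed point congruence for a `p`-subgroup on an invariant finset. -/
theorem modEq_fix {X : Type*} [MulAction G X] {p : ℕ} (hp : p.Prime) {R : Subgroup G}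
    (hR : IsPGroup p R) (S : Finset X) (hS : ∀ r ∈ R, ∀ x ∈ S, r • x ∈ S) :
    S.card ≡ (S.filter fun x => ∀ r ∈ R, r • x = x).card [MOD p] := by
  haveI := Fact.mk hp
  let T : SubMulAction R X := ⟨(S : Set X), fun r x hx => hS r r.2 x hx⟩
  haveI : Finite T := S.finite_toSet
  have h := hR.card_modEq_card_fixedPoints T
  have e1 : Nat.card T = S.card := by
    rw [← Nat.card_eq_finsetCard]; rfl
  have e2 : Nat.card (fixedPoints R T) = (S.filter fun x => ∀ r ∈ R, r • x = x).card := by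
    rw [← Nat.card_eq_finsetCard]
    refine Nat.card_congr ⟨fun x => ⟨x.1.1, mem_filter.2 ⟨x.1.2, fun r hr =>
      congrArg Subtype.val (x.2 ⟨r, hr⟩)⟩⟩, fun x => ⟨⟨x.1, (mem_filter.1 x.2).1⟩, fun r =>
      Subtype.ext ((mem_filter.1 x.2).2 r r.2)⟩, fun _ => rfl, fun _ => rfl⟩
  rwa [e1, e2] at h

theorem isPGroup_zpowers {p e : ℕ} {g : G} (hg : g ^ p ^ e = 1) : IsPGroup p (zpowers g) := by
  rintro ⟨x, k, rfl⟩
  refine ⟨e, Subtype.ext ?_⟩
  change (g ^ k) ^ p ^ e = 1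
  rw [← zpow_natCast, ← zpow_mul, mul_comm, zpow_mul, zpow_natCast, hg, one_zpow]

theorem zpow_smul_eq {X : Type*} [MulAction G X] {g : G} {x : X} (h : g • x = x) {r : G}
    (hr : r ∈ zpowers g) : r • x = x :=
  (zpowers_le.2 (show g ∈ stabilizer G x from h)) hr

theorem zpow_smul_mem {X : Type*} [MulAction G X] [Finite G] {g : G} {S : Finset X}
    (hS : ∀ x ∈ S, g • x ∈ S) {r : G} (hr : r ∈ zpowers g) : ∀ x ∈ S, r • x ∈ S := by
  obtain ⟨n, rfl⟩ := (mem_powers_iff_mem_zpowers.2 hr)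
  induction n with
  | zero => intro x hx; simpa using hx
  | succ n ih =>
    intro x hx
    simp only at ih ⊢
    rw [pow_succ', mul_smul]
    exact hS _ (ih (npow_mem_zpowers g n) x hx)

open Classical in
/-- Fixed point congruence for a `p`-element. -/
theorem modEq_fix1 {X : Type*} [MulAction G X] [Finite G] {p e : ℕ} (hp : p.Prime) {g : G}
    (hg : g ^ p ^ e = 1) (S : Finset X) (hS : ∀ x ∈ S, g • x ∈ S) :
    S.card ≡ (S.filter fun x => g • x = x).card [MOD p] := by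
  have h := modEq_fix hp (isPGroup_zpowers hg) S fun r hr => zpow_smul_mem hS hr
  have : (S.filter fun x => ∀ r ∈ zpowers g, r • x = x) = S.filter fun x => g • x = x :=
    filter_congr fun x _ => ⟨fun h => h g (mem_zpowers g), fun h r hr => zpow_smul_eq h hr⟩
  rwa [this] at h

theorem exists_fix {X : Type*} [MulAction G X] {p : ℕ} (hp : p.Prime) {R : Subgroup G}
    (hR : IsPGroup p R) (S : Finset X) (hS : ∀ r ∈ R, ∀ x ∈ S, r • x ∈ S) (hd : ¬ p ∣ S.card) :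
    ∃ x ∈ S, ∀ r ∈ R, r • x = x := by
  classical
  have h := modEq_fix hp hR S hS
  by_contra hc
  push Not at hc
  rw [filter_eq_empty_iff.2 (fun x hx h => by obtain ⟨r, h1, h2⟩ := hc x hx; exact h2 (h r h1)),
    card_empty] at h
  exact hd (Nat.modEq_zero_iff_dvd.1 h)

theorem exists_fix1 {X : Type*} [MulAction G X] [Finite G] {p e : ℕ} (hp : p.Prime) {g : G}
    (hg : g ^ p ^ e = 1) (S : Finset X) (hS : ∀ x ∈ S, g • x ∈ S) (hd : ¬ p ∣ S.card) :
    ∃ x ∈ S, g • x = x := by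
  obtain ⟨x, h1, h2⟩ := exists_fix hp (isPGroup_zpowers hg) S (fun r hr => zpow_smul_mem hS hr) hd
  exact ⟨x, h1, h2 g (mem_zpowers g)⟩

/-- A `p`-element normalising a finite set of elements of size prime to `p` centralises one. -/
theorem exists_comm [Finite G] {p e : ℕ} (hp : p.Prime) {g : G} (hg : g ^ p ^ e = 1)
    (S : Finset G) (hS : ∀ x ∈ S, g * x * g⁻¹ ∈ S) (hd : ¬ p ∣ S.card) :
    ∃ x ∈ S, g * x = x * g := by
  haveI : Finite (ConjAct G) := ‹Finite G›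
  obtain ⟨x, h1, h2⟩ := exists_fix1 (G := ConjAct G) (g := ConjAct.toConjAct g) (e := e) hp
    (by rw [← map_pow, hg, map_one]) S (by simpa [ConjAct.smul_def] using hS) hd
  refine ⟨x, h1, ?_⟩
  rw [ConjAct.smul_def, ConjAct.ofConjAct_toConjAct, mul_inv_eq_iff_eq_mul] at h2
  exact h2

/-- A `p`-element normalising a subgroup of order divisible by `p`, when the subgroup is a
`p`-group, centralises a nontrivial element of it. -/
theorem exists_comm_ne [Finite G] {p e : ℕ} (hp : p.Prime) {g : G} (hg : g ^ p ^ e = 1)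
    {Q : Subgroup G} (hd : p ∣ Nat.card Q) (hS : ∀ x ∈ Q, g * x * g⁻¹ ∈ Q) :
    ∃ x ∈ Q, x ≠ 1 ∧ g * x = x * g := by
  classical
  haveI := Fintype.ofFinite G
  obtain ⟨x, h1, h2⟩ := exists_comm hp hg ((univ.filter (· ∈ Q)).erase 1) (by
    intro x hx
    simp only [mem_erase, mem_filter, mem_univ, true_and] at hx ⊢
    exact ⟨fun h => hx.1 (by simpa using h), hS x hx.2⟩) (by
    rw [card_erase_of_mem (by simp)]
    have : (univ.filter (· ∈ Q)).card = Nat.card Q := by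
      rw [Nat.card_eq_fintype_card, Fintype.card_subtype]
    rw [this]
    intro h
    have h0 : 0 < Nat.card Q := Nat.card_pos
    have := (Nat.dvd_sub hd h)
    rw [show Nat.card Q - (Nat.card Q - 1) = 1 by omega] at this
    exact hp.one_lt.ne' (Nat.dvd_one.1 this))
  simp only [mem_erase, mem_filter, mem_univ, true_and] at h1
  exact ⟨x, h1.2, h1.1, h2⟩

/-- Restriction of the action of `N` to an invariant finset. -/
theorem exists_res (N : Subgroup G) (Γ : Finset Ω) (hN : ∀ g ∈ N, ∀ x ∈ Γ, g • x ∈ Γ) :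
    ∃ φ : N →* Equiv.Perm Γ, ∀ g (x : Γ), ((φ g x : Γ) : Ω) = (g : G) • (x : Ω) := by
  letI : MulAction N Γ :=
    { smul := fun g x => ⟨(g : G) • (x : Ω), hN g g.2 x x.2⟩
      one_smul := fun x => Subtype.ext (one_smul G (x : Ω))
      mul_smul := fun g h x => Subtype.ext (mul_smul (g : G) (h : G) (x : Ω)) }
  exact ⟨toPermHom N Γ, fun _ _ => rfl⟩

theorem res_tr {N : Subgroup G} {Γ : Finset Ω} {φ : N →* Equiv.Perm Γ}
    (hφ : ∀ g (x : Γ), ((φ g x : Γ) : Ω) = (g : G) • (x : Ω)) (h : Tr4 N Γ) :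
    IsMultiplyPretransitive φ.range Γ 4 := by
  rw [four_trans_iff]
  intro a b c d a' b' c' d' h1 h2 h3 h4 h5 h6 k1 k2 k3 k4 k5 k6
  obtain ⟨g, hg, e1, e2, e3, e4⟩ := h a b c d a' b' c' d'
    ⟨⟨fun e => h1 (Subtype.ext e), fun e => h2 (Subtype.ext e), fun e => h3 (Subtype.ext e),
      fun e => h4 (Subtype.ext e), fun e => h5 (Subtype.ext e), fun e => h6 (Subtype.ext e)⟩,
      a.2, b.2, c.2, d.2⟩
    ⟨⟨fun e => k1 (Subtype.ext e), fun e => k2 (Subtype.ext e), fun e => k3 (Subtype.ext e),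
      fun e => k4 (Subtype.ext e), fun e => k5 (Subtype.ext e), fun e => k6 (Subtype.ext e)⟩,
      a'.2, b'.2, c'.2, d'.2⟩
  exact ⟨⟨φ ⟨g, hg⟩, ⟨_, rfl⟩⟩, Subtype.ext ((hφ _ _).trans e1), Subtype.ext ((hφ _ _).trans e2),
    Subtype.ext ((hφ _ _).trans e3), Subtype.ext ((hφ _ _).trans e4)⟩

theorem tr_of_res {N : Subgroup G} {Γ : Finset Ω} {φ : N →* Equiv.Perm Γ}
    (hφ : ∀ g (x : Γ), ((φ g x : Γ) : Ω) = (g : G) • (x : Ω))
    (h : IsMultiplyPretransitive φ.range Γ 4) : Tr4 N Γ := by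
  rw [four_trans_iff] at h
  rintro a b c d a' b' c' d' ⟨⟨h1, h2, h3, h4, h5, h6⟩, ha, hb, hc, hd⟩
    ⟨⟨k1, k2, k3, k4, k5, k6⟩, ha', hb', hc', hd'⟩
  obtain ⟨⟨_, g, rfl⟩, e1, e2, e3, e4⟩ := h ⟨a, ha⟩ ⟨b, hb⟩ ⟨c, hc⟩ ⟨d, hd⟩ ⟨a', ha'⟩ ⟨b', hb'⟩
    ⟨c', hc'⟩ ⟨d', hd'⟩ (by simpa) (by simpa) (by simpa) (by simpa) (by simpa) (by simpa)
    (by simpa) (by simpa) (by simpa) (by simpa) (by simpa) (by simpa)
  exact ⟨g, g.2, (hφ g ⟨a, ha⟩).symm.trans (congrArg Subtype.val e1),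
    (hφ g ⟨b, hb⟩).symm.trans (congrArg Subtype.val e2),
    (hφ g ⟨c, hc⟩).symm.trans (congrArg Subtype.val e3),
    (hφ g ⟨d, hd⟩).symm.trans (congrArg Subtype.val e4)⟩

theorem card_filter_coe [DecidableEq Ω] {Γ : Finset Ω} (P : Ω → Prop) [DecidablePred P]
    (Q : Γ → Prop) [DecidablePred Q] (h : ∀ x : Γ, Q x ↔ P x) :
    (univ.filter Q).card = (Γ.filter P).card := by
  refine card_bij (fun x _ => (x : Ω)) (fun x hx => ?_) (fun x _ y _ e => Subtype.ext e)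
    (fun x hx => ?_)
  · exact mem_filter.2 ⟨x.2, (h x).1 (mem_filter.1 hx).2⟩
  · exact ⟨⟨x, (mem_filter.1 hx).1⟩, mem_filter.2 ⟨mem_univ _, (h _).2 (mem_filter.1 hx).2⟩, rfl⟩

/-- M. Hall's theorem for permutation groups, in the form used below. -/
theorem hall_perm {α : Type*} [Fintype α] [DecidableEq α] (K : Subgroup (Equiv.Perm α))
    (H : Hyp K α) (h4 : 4 ≤ Fintype.card α) :
    (Fintype.card α = 4 ∨ Fintype.card α = 5 ∨ Fintype.card α = 6 ∨ Fintype.card α = 7 ∨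
      Fintype.card α = 11) ∧
    (Fintype.card α = 6 ∨ Fintype.card α = 7 → K = alternatingGroup α) ∧
    (Fintype.card α ≠ 7 → ∀ g : K, 4 ≤ (Fx α g).card → g = 1) := by
  obtain ⟨x⟩ : Nonempty (Fin 4 ↪ α) := Function.Embedding.nonempty_of_card_le (by simpa)
  have hst : stabilizer K x = stabilizer K (x : Fin 4 → α) := by
    ext k
    rw [mem_stab, mem_stabilizer_iff, DFunLike.ext_iff]
    rfl
  have hodd := H.odd_card x.injective
  have hm := S4221.result K H.tr x (by rw [hst]; exact hodd)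
  refine ⟨by omega, fun h => ?_, fun h g hg => ?_⟩
  · rcases hm with h1 | h1 | h1
    · omega
    · exact h1.2
    · omega
  · by_cases h8 : 8 ≤ Fintype.card α
    · exact (hallK le_rfl H.tr H.odd (by omega)).2 g hg
    · have ho := H.odd g hg
      have h6 : Fintype.card α ≤ 6 := by omega
      have hs : (g : Equiv.Perm α).support.card ≤ 2 := by
        have : (g : Equiv.Perm α).support = (Fx α g)ᶜ := by
          ext u; simp [Fx]; rfl
        rw [this, card_compl]; omega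
      by_contra hne
      have hne' : (g : Equiv.Perm α) ≠ 1 := fun e => hne (Subtype.ext e)
      have h2 := Equiv.Perm.two_le_card_support_of_ne_one hne'
      have hsw := Equiv.Perm.card_support_eq_two.1 (le_antisymm hs h2)
      have := hsw.orderOf
      rw [Subgroup.orderOf_coe] at this
      rw [this] at ho
      exact absurd ho (by decide)

variable [DecidableEq Ω]

/-- M. Hall's theorem, relative form. -/
theorem hall [Finite G] {N : Subgroup G} {Γ : Finset Ω} (hN : ∀ g ∈ N, ∀ x ∈ Γ, g • x ∈ Γ)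
    (ht : Tr4 N Γ) (h4 : 4 ≤ Γ.card)
    (hodd : ∀ g ∈ N, 4 ≤ (Γ.filter fun x => g • x = x).card → (∀ x ∈ Γ, g • g • x = x) →
      ∀ x ∈ Γ, g • x = x) :
    (Γ.card = 4 ∨ Γ.card = 5 ∨ Γ.card = 6 ∨ Γ.card = 7 ∨ Γ.card = 11) ∧
    (Γ.card = 6 ∨ Γ.card = 7 → ∀ g ∈ N, (∀ x ∈ Γ, g • g • x = x) →
      4 ∣ (Γ.filter fun x => ¬ g • x = x).card) ∧
    (Γ.card = 7 → ∀ a b c d e e', In4 Γ a b c d → e ∈ Γ → e' ∈ Γ → e ∉ ({a, b, c, d} : Finset Ω) →
      e' ∉ ({a, b, c, d} : Finset Ω) →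
      ∃ g ∈ N, g • a = a ∧ g • b = b ∧ g • c = c ∧ g • d = d ∧ g • e = e') ∧
    (Γ.card ≠ 7 → ∀ g ∈ N, 4 ≤ (Γ.filter fun x => g • x = x).card → ∀ x ∈ Γ, g • x = x) := by
  obtain ⟨φ, hφ⟩ := exists_res N Γ hN
  have hc : Fintype.card Γ = Γ.card := Fintype.card_coe Γ
  have hFx : ∀ g : N, (Fx Γ (⟨φ g, g, rfl⟩ : φ.range)).card =
      (Γ.filter fun x => (g : G) • x = x).card := fun g =>
    card_filter_coe _ _ fun x => by rw [← hφ, Subtype.ext_iff]; rfl
  have H : Hyp φ.range Γ := by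
    refine ⟨res_tr hφ ht, ?_⟩
    rintro σ hσ
    by_contra ho
    obtain ⟨τ, h1, h2, h3⟩ := exists_invol_of_even ho (orderOf_pos _)
    have hτ : 4 ≤ (Fx Γ τ).card :=
      hσ.trans (card_le_card fun u hu => mem_Fx.2 (zpow_smul_eq (mem_Fx.1 hu) h1))
    obtain ⟨_, g, rfl⟩ := τ
    rw [hFx] at hτ
    refine h2 (Subtype.ext (Equiv.ext fun x => Subtype.ext ?_))
    rw [hφ]
    refine hodd g g.2 hτ (fun y hy => ?_) x x.2
    have := congrArg (fun σ : φ.range => ((σ.1 ⟨y, hy⟩ : Γ) : Ω)) h3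
    simpa [hφ] using this
  obtain ⟨h1, h2, h3⟩ := hall_perm φ.range H (by omega)
  rw [hc] at h1 h2 h3
  refine ⟨h1, fun h g hg hg2 => ?_, fun h a b c d e e' hi he he' k k' => ?_, fun h g hg k x hx => ?_⟩
  · have hm : φ ⟨g, hg⟩ ∈ alternatingGroup Γ := by rw [← h2 h]; exact ⟨_, rfl⟩
    have hsq : φ ⟨g, hg⟩ ^ 2 = 1 := by
      ext x
      simp [sq, hφ, hg2 x x.2]
    rw [Equiv.Perm.mem_alternatingGroup, Equiv.Perm.sign_of_pow_two_eq_one hsq, hc] at hm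
    have e1 : Fintype.card (Function.fixedPoints (φ ⟨g, hg⟩)) =
        (Γ.filter fun x => g • x = x).card := by
      rw [Fintype.card_subtype]
      exact card_filter_coe _ _ fun x => by
        rw [Function.mem_fixedPoints_iff, Subtype.ext_iff, hφ]
    rw [e1] at hm
    have e2 := card_filter_add_card_filter_not (s := Γ) (fun x => g • x = x)
    have e3 : Γ.card ≡ (Γ.filter fun x => g • x = x).card [MOD 2] := by
      rw [← hc, ← e1]
      exact Equiv.Perm.card_fixedPoints_modEq (p := 2) (n := 1) (f := (φ ⟨g, hg⟩ : Γ → Γ))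
        (by funext x; exact congrArg (fun σ : Equiv.Perm Γ => σ x) hsq)
    have e4 : Even ((Γ.card - (Γ.filter fun x => g • x = x).card) / 2) := by
      by_contra hc
      rw [Nat.not_even_iff_odd] at hc
      rw [hc.neg_one_pow] at hm
      exact absurd hm (by decide)
    obtain ⟨r, hr⟩ := e4
    unfold Nat.ModEq at e3
    omega
  · have hA := alternatingGroup.isMultiplyPretransitive Γ
    rw [Nat.card_eq_fintype_card, hc, h, ← h2 (Or.inr h)] at hA
    obtain ⟨⟨h1, h2', h3', h4', h5, h6⟩, ha, hb, hc', hd⟩ := hi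
    obtain ⟨⟨_, g, rfl⟩, e1, e2⟩ := exists_fix_smul_eq_of_succ (k := 4) hA
      {⟨a, ha⟩, ⟨b, hb⟩, ⟨c, hc'⟩, ⟨d, hd⟩}
      (D4.card ⟨by simpa, by simpa, by simpa, by simpa, by simpa, by simpa⟩)
      (a := ⟨e, he⟩) (b := ⟨e', he'⟩) (by simpa using k) (by simpa using k')
    have f : ∀ x : Γ, ∀ y : Γ, (⟨φ g, g, rfl⟩ : φ.range) • x = y → (g : G) • (x : Ω) = y :=
      fun x y hxy => (hφ g x).symm.trans (congrArg Subtype.val hxy)
    exact ⟨g, g.2, f _ _ (e1 ⟨a, ha⟩ (by simp)), f _ _ (e1 ⟨b, hb⟩ (by simp)),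
      f _ _ (e1 ⟨c, hc'⟩ (by simp)), f _ _ (e1 ⟨d, hd⟩ (by simp)), f _ _ e2⟩
  · have := h3 h ⟨φ ⟨g, hg⟩, _, rfl⟩ (by rw [hFx]; exact k)
    have := congrArg (fun σ : φ.range => ((σ.1 ⟨x, hx⟩ : Γ) : Ω)) this
    simpa [hφ] using this

/-- Gleason's lemma, relative form. -/
theorem gleason [Finite G] {N : Subgroup G} {Γ : Finset Ω} (hN : ∀ g ∈ N, ∀ x ∈ Γ, g • x ∈ Γ)
    (h4 : 4 < Γ.card) {p : ℕ} (hp : p.Prime)
    (h : ∀ S ⊆ Γ, S.card = 4 → ∃ g ∈ N, ∃ e, g ^ p ^ e = 1 ∧ ∀ x ∈ Γ, g • x = x ↔ x ∈ S) :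
    Tr4 N Γ := by
  obtain ⟨φ, hφ⟩ := exists_res N Γ hN
  refine tr_of_res hφ (S0743.result φ.range hp (by omega) (by rwa [Fintype.card_coe]) fun s hs => ?_)
  obtain ⟨g, hg, e, h1, h2⟩ := h (s.map (Function.Embedding.subtype _))
    (fun x hx => by obtain ⟨y, -, rfl⟩ := mem_map.1 hx; exact y.2) (by rwa [card_map])
  refine ⟨zpowers ⟨φ ⟨g, hg⟩, _, rfl⟩, isPGroup_zpowers (e := e) (Subtype.ext ?_), ?_⟩
  · change (φ ⟨g, hg⟩) ^ p ^ e = 1
    rw [← map_pow, show (⟨g, hg⟩ : N) ^ p ^ e = 1 from Subtype.ext h1, map_one]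
  · ext x
    have : x ∈ s ↔ g • (x : Ω) = x := by
      rw [h2 x x.2]; simp
    rw [mem_coe, this]
    constructor
    · intro hx
      have := hx ⟨_, mem_zpowers _⟩
      exact (hφ ⟨g, hg⟩ x).symm.trans (congrArg Subtype.val this)
    · intro hx r
      exact zpow_smul_eq (g := (⟨φ ⟨g, hg⟩, _, rfl⟩ : φ.range))
        (Subtype.ext ((hφ ⟨g, hg⟩ x).trans hx)) r.2

/-- Jordan's theorem on normal subgroups, relative form. -/
theorem normal_tr3 [Finite G] {N C : Subgroup G} {Γ : Finset Ω}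
    (hN : ∀ g ∈ N, ∀ x ∈ Γ, g • x ∈ Γ) (ht : Tr4 N Γ) (h4 : 4 < Γ.card) (hC : C ≤ N)
    (hn : ∀ g ∈ N, ∀ c ∈ C, g * c * g⁻¹ ∈ C) {c : G} (hc : c ∈ C) {y : Ω} (hy : y ∈ Γ)
    (hcy : c • y ≠ y) {a b d a' b' d' : Ω} (ha : a ∈ Γ) (hb : b ∈ Γ) (hd : d ∈ Γ) (ha' : a' ∈ Γ)
    (hb' : b' ∈ Γ) (hd' : d' ∈ Γ) (h1 : a ≠ b) (h2 : a ≠ d) (h3 : b ≠ d) (k1 : a' ≠ b')
    (k2 : a' ≠ d') (k3 : b' ≠ d') : ∃ g ∈ C, g • a = a' ∧ g • b = b' ∧ g • d = d' := by
  obtain ⟨φ, hφ⟩ := exists_res N Γ hN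
  haveI : (C.subgroupOf N).Normal := ⟨fun x hx g => hn g g.2 x hx⟩
  let M : Subgroup φ.range := (C.subgroupOf N).map φ.rangeRestrict
  haveI : M.Normal := Subgroup.Normal.map inferInstance _ φ.rangeRestrict_surjective
  have hM : M ≠ ⊥ := by
    intro e
    have : φ.rangeRestrict ⟨c, hC hc⟩ ∈ M := ⟨_, hc, rfl⟩
    rw [e, Subgroup.mem_bot] at this
    have := congrArg (fun σ : φ.range => ((σ.1 ⟨y, hy⟩ : Γ) : Ω)) this
    exact hcy (by simpa [hφ] using this)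
  rcases S0698.result φ.range (k := 4) (by omega) (by rwa [Fintype.card_coe]) (res_tr hφ ht) M hM
    with h | h
  · obtain ⟨⟨_, g, hg, rfl⟩, e1, e2, e3⟩ := three_trans_iff.1 h ⟨a, ha⟩ ⟨b, hb⟩ ⟨d, hd⟩ ⟨a', ha'⟩
      ⟨b', hb'⟩ ⟨d', hd'⟩ (by simpa) (by simpa) (by simpa) (by simpa) (by simpa) (by simpa)
    exact ⟨g, hg, (hφ g ⟨a, ha⟩).symm.trans (congrArg Subtype.val e1),
      (hφ g ⟨b, hb⟩).symm.trans (congrArg Subtype.val e2),
      (hφ g ⟨d, hd⟩).symm.trans (congrArg Subtype.val e3)⟩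
  · omega

end Cfsg.Agent.Fr4
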