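import Mathlib
import Cfsg.Agent.Fr4.Base

/-! Invariant Steiner systems `S(4,k,n)`: counting with an involution, and the systems arising
from canonical subgroups of four-point stabilisers. -/

set_option autoImplicit false
set_option linter.unusedSectionVars false
set_option linter.style.haveILetI false

namespace Cfsg.Agent.Fr4

open Subgroup MulAction Cfsg.Agent.Perm Cfsg.Agent.Perm.Hall4 Finset
open scoped Pointwise

variable {G Ω : Type*} [Group G] [MulAction G Ω] [DecidableEq Ω]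

variable (G) in
/-- An invariant system of blocks, any four points on exactly one block. -/
structure Blk (𝔅 : Set (Finset Ω)) : Prop where
  ex : ∀ a b c d : Ω, D4 a b c d → ∃ B ∈ 𝔅, In4 B a b c d
  un : ∀ B ∈ 𝔅, ∀ B' ∈ 𝔅, ∀ a b c d : Ω, In4 B a b c d → In4 B' a b c d → B = B'
  inv : ∀ g : G, ∀ B ∈ 𝔅, g • B ∈ 𝔅

theorem Blk.smul_mem {𝔅 : Set (Finset Ω)} (h : Blk G 𝔅) {B : Finset Ω} (hB : B ∈ 𝔅) {g : G}
    {a b c d : Ω} (hi : In4 B a b c d) (ha : g • a ∈ B) (hb : g • b ∈ B) (hc : g • c ∈ B)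
    (hd : g • d ∈ B) : g • B = B := by
  obtain ⟨⟨h1, h2, h3, h4, h5, h6⟩, k1, k2, k3, k4⟩ := hi
  have hD : D4 (g • a) (g • b) (g • c) (g • d) :=
    ⟨by simpa, by simpa, by simpa, by simpa, by simpa, by simpa⟩
  exact h.un _ (h.inv g B hB) _ hB _ _ _ _ ⟨hD, smul_mem_smul_finset k1, smul_mem_smul_finset k2,
    smul_mem_smul_finset k3, smul_mem_smul_finset k4⟩ ⟨hD, ha, hb, hc, hd⟩

theorem mem_of_smul_eq {B : Finset Ω} {g : G} (h : g • B = B) {x : Ω} (hx : x ∈ B) : g • x ∈ B :=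
  h ▸ smul_mem_smul_finset hx

theorem smul_eq_of_mem {B : Finset Ω} {g : G} (h : ∀ x ∈ B, g • x ∈ B) : g • B = B := by
  apply eq_of_subset_of_card_le
  · intro y hy
    obtain ⟨x, hx, rfl⟩ := mem_smul_finset.1 hy
    exact h x hx
  · rw [card_smul_finset]

theorem Blk.cnt {𝔅 : Set (Finset Ω)} (h : Blk G 𝔅) {Γ : Finset Ω}
    (hΓ : ∀ B ∈ 𝔅, ∀ a b c d, In4 B a b c d → In4 Γ a b c d → B ⊆ Γ) {z : G}
    (hz : ∀ x ∈ Γ, z • x ∈ Γ) (hz2 : ∀ x ∈ Γ, z • z • x = x) {δ : Ω} (hδ : δ ∈ Γ)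
    (hδ' : z • δ ≠ δ) {j : ℕ}
    (hj : ∀ B ∈ 𝔅, B ⊆ Γ → δ ∈ B → z • B = B → 2 ≤ (B.filter fun x => z • x = x).card →
      (B.filter fun x => z • x = x).card = j) :
    ∃ s, (Γ.filter fun x => z • x = x).card * (Γ.filter fun x => z • x = x).card -
        (Γ.filter fun x => z • x = x).card = s * (j * j - j) ∧
      ∀ k, (∀ B ∈ 𝔅, B ⊆ Γ → δ ∈ B → z • B = B → 2 ≤ (B.filter fun x => z • x = x).card ∧
        B.card = k) →
        Γ.card = (Γ.filter fun x => z • x = x).card + 2 + s * (k - j - 2) := by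
  classical
  set 𝒮 := Γ.powerset.filter fun B => B ∈ 𝔅 ∧ δ ∈ B ∧ z • B = B ∧
    2 ≤ (B.filter fun x => z • x = x).card with h𝒮
  have m𝒮 : ∀ B, B ∈ 𝒮 ↔ B ⊆ Γ ∧ B ∈ 𝔅 ∧ δ ∈ B ∧ z • B = B ∧
    2 ≤ (B.filter fun x => z • x = x).card := fun B => by simp [h𝒮]
  have hδ2 : z • z • δ ≠ z • δ := by simpa using hδ'
  refine ⟨𝒮.card, ?_, fun k hk => ?_⟩
  · have := card_mul_eq_card_mul (s := (Γ.filter fun x => z • x = x).offDiag) (t := 𝒮)
      (fun p B => p.1 ∈ B ∧ p.2 ∈ B) (m := 1) (n := j * j - j) ?_ ?_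
    · rwa [mul_one, offDiag_card] at this
    · rintro ⟨a, b⟩ hp
      simp only [mem_offDiag, mem_filter] at hp
      obtain ⟨⟨ha, ha'⟩, ⟨hb, hb'⟩, hab⟩ := hp
      have hD : D4 a b δ (z • δ) := ⟨hab, fun e => hδ' (e ▸ ha'), fun e => hδ2 (e ▸ ha'),
        fun e => hδ' (e ▸ hb'), fun e => hδ2 (e ▸ hb'), hδ'.symm⟩
      obtain ⟨B, hB, hi⟩ := h.ex _ _ _ _ hD
      have hinv : z • B = B := h.smul_mem hB hi (ha'.symm ▸ hi.2.1) (hb'.symm ▸ hi.2.2.1)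
        hi.2.2.2.2 ((hz2 δ hδ).symm ▸ hi.2.2.2.1)
      rw [Finset.card_eq_one]
      refine ⟨B, eq_singleton_iff_unique_mem.2 ⟨(mem_bipartiteAbove _).2 ⟨(m𝒮 B).2
        ⟨hΓ B hB _ _ _ _ hi ⟨hD, ha, hb, hδ, hz δ hδ⟩, hB, hi.2.2.2.1, hinv, ?_⟩, hi.2.1,
          hi.2.2.1⟩, fun B' hB' => ?_⟩⟩
      · rw [← card_pair hab]
        apply card_le_card
        intro x hx
        simp only [mem_insert, mem_singleton] at hx
        rcases hx with rfl | rfl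
        · exact mem_filter.2 ⟨hi.2.1, ha'⟩
        · exact mem_filter.2 ⟨hi.2.2.1, hb'⟩
      · obtain ⟨h1, h2, h3⟩ := (mem_bipartiteAbove _).1 hB'
        obtain ⟨-, k2, k3, k4, -⟩ := (m𝒮 B').1 h1
        exact h.un _ k2 _ hB _ _ _ _ ⟨hD, h2, h3, k3, mem_of_smul_eq k4 k3⟩ hi
    · intro B hB
      obtain ⟨k1, k2, k3, k4, k5⟩ := (m𝒮 B).1 hB
      rw [← hj B k2 k1 k3 k4 k5, ← offDiag_card]
      congr 1
      ext ⟨a, b⟩
      simp only [mem_bipartiteBelow, mem_offDiag, mem_filter]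
      exact ⟨fun ⟨⟨⟨_, h1⟩, ⟨_, h2⟩, h3⟩, h4, h5⟩ => ⟨⟨h4, h1⟩, ⟨h5, h2⟩, h3⟩,
        fun ⟨⟨h4, h1⟩, ⟨h5, h2⟩, h3⟩ => ⟨⟨⟨k1 h4, h1⟩, ⟨k1 h5, h2⟩, h3⟩, h4, h5⟩⟩
  · have hc : ∀ B : Finset Ω, δ ∈ B → z • δ ∈ B →
        (((B.filter fun x => ¬ z • x = x).erase δ).erase (z • δ)).card + 2 +
          (B.filter fun x => z • x = x).card = B.card := by
      intro B h1 h2
      have e1 := card_filter_add_card_filter_not (s := B) (fun x => z • x = x)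
      have m1 : δ ∈ B.filter fun x => ¬ z • x = x := mem_filter.2 ⟨h1, hδ'⟩
      have m2 : z • δ ∈ (B.filter fun x => ¬ z • x = x).erase δ :=
        mem_erase.2 ⟨hδ', mem_filter.2 ⟨h2, hδ2⟩⟩
      have e2 := card_erase_add_one m1
      have e3 := card_erase_add_one m2
      omega
    have := card_mul_eq_card_mul (s := ((Γ.filter fun x => ¬ z • x = x).erase δ).erase (z • δ))
      (t := 𝒮) (fun e B => e ∈ B) (m := 1) (n := k - j - 2) ?_ ?_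
    · have e := hc Γ hδ (hz δ hδ)
      omega
    · intro a ha
      simp only [mem_erase, mem_filter] at ha
      obtain ⟨h1, h2, ha, ha'⟩ := ha
      have hD : D4 a (z • a) δ (z • δ) := ⟨Ne.symm ha', h2, h1,
        fun e => h1 (by rw [← e, hz2 a ha]), by simpa using h2, hδ'.symm⟩
      obtain ⟨B, hB, hi⟩ := h.ex _ _ _ _ hD
      have hinv : z • B = B := h.smul_mem hB hi hi.2.2.1 ((hz2 a ha).symm ▸ hi.2.1)
        hi.2.2.2.2 ((hz2 δ hδ).symm ▸ hi.2.2.2.1)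
      have hs := hΓ B hB _ _ _ _ hi ⟨hD, ha, hz a ha, hδ, hz δ hδ⟩
      rw [Finset.card_eq_one]
      refine ⟨B, eq_singleton_iff_unique_mem.2 ⟨(mem_bipartiteAbove _).2 ⟨(m𝒮 B).2
        ⟨hs, hB, hi.2.2.2.1, hinv, (hk B hB hs hi.2.2.2.1 hinv).1⟩, hi.2.1⟩, fun B' hB' => ?_⟩⟩
      obtain ⟨h1, h2⟩ := (mem_bipartiteAbove _).1 hB'
      obtain ⟨-, k2, k3, k4, -⟩ := (m𝒮 B').1 h1
      exact h.un _ k2 _ hB _ _ _ _ ⟨hD, h2, mem_of_smul_eq k4 h2, k3, mem_of_smul_eq k4 k3⟩ hi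
    · intro B hB
      obtain ⟨k1, k2, k3, k4, k5⟩ := (m𝒮 B).1 hB
      have e := hc B k3 (mem_of_smul_eq k4 k3)
      rw [hj B k2 k1 k3 k4 k5, (hk B k2 k1 k3 k4).2] at e
      rw [show k - j - 2 = (((B.filter fun x => ¬ z • x = x).erase δ).erase (z • δ)).card by omega]
      congr 1
      ext a
      simp only [mem_bipartiteBelow, mem_erase, mem_filter]
      exact ⟨fun ⟨⟨h1, h2, _, h3⟩, h4⟩ => ⟨h1, h2, h4, h3⟩,
        fun ⟨h1, h2, h4, h3⟩ => ⟨⟨h1, h2, k1 h4, h3⟩, h4⟩⟩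

/-- The blocks through three points partition the remaining points of a closed set. -/
theorem Blk.dvd {𝔅 : Set (Finset Ω)} (h : Blk G 𝔅) {Γ : Finset Ω}
    (hΓ : ∀ B ∈ 𝔅, ∀ a b c d, In4 B a b c d → In4 Γ a b c d → B ⊆ Γ) {k : ℕ}
    (hk : ∀ B ∈ 𝔅, B.card = k) {a b c : Ω} (ha : a ∈ Γ) (hb : b ∈ Γ) (hc : c ∈ Γ) (h1 : a ≠ b)
    (h2 : a ≠ c) (h3 : b ≠ c) : k - 3 ∣ Γ.card - 3 := by
  classical
  have hc3 : ∀ B : Finset Ω, a ∈ B → b ∈ B → c ∈ B → (B \ {a, b, c}).card = B.card - 3 := by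
    intro B k1 k2 k3
    rw [card_sdiff_of_subset (by intro x hx; simp at hx; rcases hx with rfl | rfl | rfl <;> assumption),
      card_eq_three.2 ⟨a, b, c, h1, h2, h3, rfl⟩]
  have := card_mul_eq_card_mul (s := Γ \ {a, b, c})
    (t := Γ.powerset.filter fun B => B ∈ 𝔅 ∧ a ∈ B ∧ b ∈ B ∧ c ∈ B) (fun e B => e ∈ B) (m := 1)
    (n := k - 3) ?_ ?_
  · rw [mul_one, hc3 Γ ha hb hc] at this
    exact Dvd.intro_left _ this.symm
  · intro d hd
    simp only [mem_sdiff, mem_insert, mem_singleton, not_or] at hd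
    have hD : D4 a b c d := ⟨h1, h2, Ne.symm hd.2.1, h3, Ne.symm hd.2.2.1, Ne.symm hd.2.2.2⟩
    obtain ⟨B, hB, hi⟩ := h.ex _ _ _ _ hD
    rw [Finset.card_eq_one]
    refine ⟨B, eq_singleton_iff_unique_mem.2 ⟨(mem_bipartiteAbove _).2 ⟨mem_filter.2
      ⟨mem_powerset.2 (hΓ B hB _ _ _ _ hi ⟨hD, ha, hb, hc, hd.1⟩), hB, hi.2.1, hi.2.2.1,
        hi.2.2.2.1⟩, hi.2.2.2.2⟩, fun B' hB' => ?_⟩⟩
    obtain ⟨k1, k2⟩ := (mem_bipartiteAbove _).1 hB'
    obtain ⟨-, k3, k4, k5, k6⟩ := mem_filter.1 k1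
    exact h.un _ k3 _ hB _ _ _ _ ⟨hD, k4, k5, k6, k2⟩ hi
  · intro B hB
    obtain ⟨k1, k3, k4, k5, k6⟩ := mem_filter.1 hB
    rw [← hk B k3, ← hc3 B k4 k5 k6]
    congr 1
    ext d
    simp only [mem_bipartiteBelow, mem_sdiff]
    exact ⟨fun ⟨⟨_, h1⟩, h2⟩ => ⟨h2, h1⟩, fun ⟨h2, h1⟩ => ⟨⟨mem_powerset.1 k1 h2, h1⟩, h2⟩⟩

variable [Fintype Ω]

/-- No `S(4,6,n)` admits an involution with at least four fixed points acting as an even
permutation on each invariant block. -/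
theorem Blk.six {𝔅 : Set (Finset Ω)} (h : Blk G 𝔅) (hk : ∀ B ∈ 𝔅, B.card = 6) {z : G}
    (hz2 : z * z = 1) {δ : Ω} (hδ : z • δ ≠ δ) {a b c d : Ω} (hi : In4 (Fx Ω z) a b c d)
    (hev : ∀ B ∈ 𝔅, z • B = B → 4 ∣ (B.filter fun x => ¬ z • x = x).card) : False := by
  have key : ∀ B ∈ 𝔅, z • B = B → (B.filter fun x => z • x = x).card = 2 ∨
      (B.filter fun x => ¬ z • x = x).card = 0 := by
    intro B hB e
    have e1 := card_filter_add_card_filter_not (s := B) (fun x => z • x = x)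
    have := hk B hB
    have := hev B hB e
    omega
  have key2 : ∀ B ∈ 𝔅, δ ∈ B → z • B = B → (B.filter fun x => z • x = x).card = 2 := by
    intro B hB hd e
    refine (key B hB e).resolve_right fun h0 => ?_
    rw [card_eq_zero, filter_eq_empty_iff] at h0
    exact h0 hd hδ
  obtain ⟨s, h1, h2⟩ := h.cnt (Γ := univ) (fun B _ _ _ _ _ _ _ => subset_univ B) (z := z)
    (fun x _ => mem_univ _) (fun x _ => by rw [← mul_smul, hz2, one_smul]) (mem_univ δ) hδ (j := 2)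
    (fun B hB _ hd e _ => key2 B hB hd e)
  have h3 := h2 6 fun B hB _ hd e => ⟨(key2 B hB hd e).ge, hk B hB⟩
  have d1 := h.dvd (Γ := univ) (fun B _ _ _ _ _ _ _ => subset_univ B) hk (mem_univ a) (mem_univ b)
    (mem_univ c) hi.1.1 hi.1.2.1 hi.1.2.2.2.1
  have d2 := h.dvd (Γ := Fx Ω z) (fun B hB a b c d k1 k2 => ?_) hk hi.2.1 hi.2.2.1 hi.2.2.2.1
    hi.1.1 hi.1.2.1 hi.1.2.2.2.1
  · have h4 := hi.le_card
    change _ ∣ (univ.filter fun x : Ω => z • x = x).card - 3 at d2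
    change 4 ≤ (univ.filter fun x : Ω => z • x = x).card at h4
    generalize (univ.filter fun x : Ω => z • x = x).card = f at *
    obtain ⟨u, hu⟩ := d2
    obtain rfl : f = 3 * (u + 1) := by omega
    have : 3 * (u + 1) * (3 * (u + 1)) = 3 * (3 * (u + 1) * (u + 1)) := by ring
    omega
  · have e : z • B = B := h.smul_mem hB k1 ((mem_Fx.1 k2.2.1).symm ▸ k1.2.1)
      ((mem_Fx.1 k2.2.2.1).symm ▸ k1.2.2.1) ((mem_Fx.1 k2.2.2.2.1).symm ▸ k1.2.2.2.1)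
      ((mem_Fx.1 k2.2.2.2.2).symm ▸ k1.2.2.2.2)
    rcases key B hB e with h0 | h0
    · have : In4 (B.filter fun x => z • x = x) a b c d := ⟨k1.1,
        mem_filter.2 ⟨k1.2.1, mem_Fx.1 k2.2.1⟩, mem_filter.2 ⟨k1.2.2.1, mem_Fx.1 k2.2.2.1⟩,
        mem_filter.2 ⟨k1.2.2.2.1, mem_Fx.1 k2.2.2.2.1⟩,
        mem_filter.2 ⟨k1.2.2.2.2, mem_Fx.1 k2.2.2.2.2⟩⟩
      have := this.le_card
      omega
    · rw [card_eq_zero, filter_eq_empty_iff] at h0
      intro x hx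
      exact mem_Fx.2 (not_not.1 (h0 hx))

variable (G) in
/-- The pointwise stabiliser of a finset. -/
def fx (S : Finset Ω) : Subgroup G where
  carrier := {g | ∀ x ∈ S, g • x = x}
  one_mem' := fun x _ => one_smul G x
  mul_mem' := fun {a b} ha hb x hx => by rw [mul_smul, hb x hx, ha x hx]
  inv_mem' := fun {a} ha x hx => by rw [inv_smul_eq_iff, ha x hx]

theorem mem_fx {S : Finset Ω} {g : G} : g ∈ fx G S ↔ ∀ x ∈ S, g • x = x := Iff.rfl

theorem mem_fx4 {a b c d : Ω} {g : G} :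
    g ∈ fx G {a, b, c, d} ↔ g • a = a ∧ g • b = b ∧ g • c = c ∧ g • d = d := by
  simp [mem_fx]

theorem mem_fx3 {a b c : Ω} {g : G} :
    g ∈ fx G {a, b, c} ↔ g • a = a ∧ g • b = b ∧ g • c = c := by
  simp [mem_fx]

theorem conj_mem_fx {S : Finset Ω} {g : G} (hg : g ∈ fx G S) (x : G) :
    x * g * x⁻¹ ∈ fx G (x • S) := by
  intro y hy
  obtain ⟨w, hw, rfl⟩ := mem_smul_finset.1 hy
  rw [mul_smul, inv_smul_smul, mul_smul, hg w hw]

theorem fx_anti {S S' : Finset Ω} (h : S ⊆ S') : fx G S' ≤ fx G S := fun _ hg x hx => hg x (h hx)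

variable (Ω) in
open Classical in
/-- The fixed points of a subgroup. -/
noncomputable def FS (U : Subgroup G) : Finset Ω := univ.filter fun x => ∀ u ∈ U, u • x = x

theorem mem_FS {U : Subgroup G} {x : Ω} : x ∈ FS Ω U ↔ ∀ u ∈ U, u • x = x := by simp [FS]

theorem smul_mem_FS {U : Subgroup G} {g : G} (hg : ∀ u ∈ U, g⁻¹ * u * g ∈ U) {x : Ω}
    (hx : x ∈ FS Ω U) : g • x ∈ FS Ω U := by
  rw [mem_FS] at hx ⊢
  intro u hu
  have := hx _ (hg u hu)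
  rwa [mul_smul, mul_smul, inv_smul_eq_iff] at this

theorem smul_mem_Fx {g t : G} (hg : g * t = t * g) {x : Ω} (hx : x ∈ Fx Ω t) : g • x ∈ Fx Ω t := by
  rw [mem_Fx] at hx ⊢
  rw [← mul_smul, ← hg, mul_smul, hx]

theorem smul4 (g : G) (a b c d : Ω) :
    g • ({a, b, c, d} : Finset Ω) = {g • a, g • b, g • c, g • d} := by
  simp [smul_finset_insert]

theorem card_conj_eq [Finite G] {U V : Subgroup G} {x : G} (h1 : ∀ g ∈ U, x * g * x⁻¹ ∈ V)
    (h2 : ∀ g ∈ V, x⁻¹ * g * x ∈ U) : Nat.card U = Nat.card V :=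
  Nat.card_congr ⟨fun g => ⟨_, h1 g g.2⟩, fun g => ⟨_, h2 g g.2⟩, fun g => by ext; simp [mul_assoc],
    fun g => by ext; simp [mul_assoc]⟩

/-- A canonical choice of subgroups of the four-point stabilisers. -/
structure Can (U : Finset Ω → Subgroup G) : Prop where
  tr : Tr4 (⊤ : Subgroup G) (univ : Finset Ω)
  le : ∀ S, S.card = 4 → U S ≤ fx G S
  conj : ∀ S, S.card = 4 → ∀ x : G, ∀ g ∈ U S, x * g * x⁻¹ ∈ U (x • S)
  mono : ∀ S S', S.card = 4 → S'.card = 4 → ∀ g ∈ U S, g ∈ fx G S' → g ∈ U S'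

theorem Tr4.exists_smul (h : Tr4 (⊤ : Subgroup G) (univ : Finset Ω)) {S S' : Finset Ω}
    (h1 : S.card = 4) (h2 : S'.card = 4) : ∃ g : G, g • S = S' := by
  obtain ⟨a, b, c, d, hd, rfl⟩ := exists_D4 h1
  obtain ⟨a', b', c', d', hd', rfl⟩ := exists_D4 h2
  obtain ⟨g, -, rfl, rfl, rfl, rfl⟩ := h a b c d a' b' c' d' ⟨hd, by simp⟩ ⟨hd', by simp⟩
  exact ⟨g, smul4 ..⟩

namespace Can

variable [Finite G] {U : Finset Ω → Subgroup G} (h : Can U)
include h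

theorem card_eq {S S' : Finset Ω} (h1 : S.card = 4) (h2 : S'.card = 4) :
    Nat.card (U S) = Nat.card (U S') := by
  obtain ⟨g, rfl⟩ := h.tr.exists_smul h1 h2
  refine card_conj_eq (h.conj S h1 g) fun u hu => ?_
  have := h.conj _ h2 g⁻¹ u hu
  rwa [inv_smul_smul, inv_inv] at this

theorem sub {S : Finset Ω} (h1 : S.card = 4) : S ⊆ FS Ω (U S) :=
  fun x hx => mem_FS.2 fun _ hu => h.le S h1 hu x hx

theorem eq_of_sub {S S' : Finset Ω} (h1 : S.card = 4) (h2 : S'.card = 4) (hs : S' ⊆ FS Ω (U S)) :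
    U S' = U S :=
  (Subgroup.eq_of_le_of_card_ge (fun u hu => h.mono S S' h1 h2 u hu
    fun _ hx => mem_FS.1 (hs hx) u hu) (h.card_eq h2 h1).le).symm

theorem smul_FS {S : Finset Ω} (h1 : S.card = 4) (g : G) :
    g • FS Ω (U S) = FS Ω (U (g • S)) := by
  ext x
  rw [← inv_smul_mem_iff, mem_FS, mem_FS]
  constructor
  · intro k u hu
    have := h.conj _ (by rwa [card_smul_finset]) g⁻¹ u hu
    rw [inv_smul_smul] at this
    have := k _ this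
    rwa [mul_smul, mul_smul, inv_inv, smul_inv_smul, smul_left_cancel_iff] at this
  · intro k u hu
    have := k _ (h.conj S h1 g u hu)
    rwa [mul_smul, mul_smul, ← eq_inv_smul_iff] at this

omit h in
/-- The blocks. -/
def bl (U : Finset Ω → Subgroup G) : Set (Finset Ω) := {B | ∃ S, S.card = 4 ∧ B = FS Ω (U S)}

theorem blk_eq {B : Finset Ω} (hB : B ∈ bl U) {a b c d : Ω} (hi : In4 B a b c d) :
    B = FS Ω (U {a, b, c, d}) := by
  obtain ⟨S, h1, rfl⟩ := hB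
  rw [h.eq_of_sub h1 hi.1.card hi.sub]

theorem blk : Blk G (bl U) := by
  refine ⟨fun a b c d hd => ⟨_, ⟨_, hd.card, rfl⟩, hd, ?_⟩, fun B hB B' hB' a b c d k k' => ?_, ?_⟩
  · have := h.sub hd.card
    exact ⟨this (by simp), this (by simp), this (by simp), this (by simp)⟩
  · rw [h.blk_eq hB k, h.blk_eq hB' k']
  · rintro g _ ⟨S, h1, rfl⟩
    exact ⟨g • S, by rwa [card_smul_finset], h.smul_FS h1 g⟩

theorem card_blk {B B' : Finset Ω} (hB : B ∈ bl U) (hB' : B' ∈ bl U) : B.card = B'.card := by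
  obtain ⟨S, h1, rfl⟩ := hB
  obtain ⟨S', h2, rfl⟩ := hB'
  obtain ⟨g, rfl⟩ := h.tr.exists_smul h1 h2
  rw [← h.smul_FS h1, card_smul_finset]

theorem tr_blk {B : Finset Ω} (hB : B ∈ bl U) : Tr4 (stabilizer G B) B := by
  intro a b c d a' b' c' d' k k'
  obtain ⟨g, -, rfl, rfl, rfl, rfl⟩ := h.tr a b c d a' b' c' d' ⟨k.1, by simp⟩ ⟨k'.1, by simp⟩
  exact ⟨g, h.blk.smul_mem hB k k'.2.1 k'.2.2.1 k'.2.2.2.1 k'.2.2.2.2, rfl, rfl, rfl, rfl⟩

/-- The stabiliser of a block normalises the canonical subgroup. -/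
theorem conj_mem {S : Finset Ω} (h1 : S.card = 4) {g : G} (hg : g • FS Ω (U S) = FS Ω (U S))
    {u : G} (hu : u ∈ U S) : g * u * g⁻¹ ∈ U S := by
  have := h.conj S h1 g u hu
  rwa [h.eq_of_sub h1 (by rwa [card_smul_finset]) (by
    rw [← hg]; exact smul_finset_subset_smul_finset (h.sub h1))] at this

end Can

end Cfsg.Agent.Fr4
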