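import Mathlib
import Cfsg.Agent.Fr4.Blk
import Cfsg.Agent.S0034
import Cfsg.Agent.S0035
import Cfsg.Agent.S0039
import Cfsg.Agent.S0042
import Cfsg.Agent.Solv.FrobeniusAction
import Cfsg.Agent.Solv.CN

/-! Quadruply transitive groups whose four-point stabilisers are Frobenius groups: the standing
hypothesis `Hy G Ω κ m` (`κ` the order of the kernel, `m` of the complement) and its API.

Notation used in all `Fr4` docstrings: `D_S = fx G S` (pointwise stabiliser), `K_S = KK κ S`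
(Frobenius kernel of `D_S` when `|S| = 4`: the `g ∈ D_S` with `g ^ κ = 1`), `PP r S` the
`r`-elements of `D_S` (a subgroup when `r ∤ m`), `Fx Ω g` the fixed points of an element, `FS Ω U`
those of a subgroup. -/

set_option autoImplicit false
set_option linter.unusedSectionVars false
set_option linter.style.haveILetI false

namespace Cfsg.Agent.Fr4

open Subgroup MulAction Cfsg.Agent.Perm Cfsg.Agent.Perm.Hall4 Finset
open scoped Pointwise

variable {G Ω : Type*} [Group G]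

/-- Frobenius data: `D = K ⋊ H`. -/
structure FD (D K H : Subgroup G) (κ m : ℕ) : Prop where
  Kle : K ≤ D
  Hle : H ≤ D
  cK : Nat.card K = κ
  cH : Nat.card H = m
  cD : Nat.card D = κ * m
  nK : ∀ d ∈ D, ∀ k ∈ K, d * k * d⁻¹ ∈ K
  fpf : ∀ d ∈ D, d ∉ K → ∀ k ∈ K, d * k = k * d → k = 1
  cj : ∀ d ∈ D, d ∉ K → ∃ k ∈ K, k * d * k⁻¹ ∈ H
  inf : ∀ h ∈ H, h ∈ K → h = 1
  nil : Group.IsNilpotent K
  dvd : m ∣ κ - 1
  k1 : 1 < κ
  m1 : 1 < m

/-- Every element is the product of an `r`-element and an `r'`-element, both powers of it. -/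
theorem exists_parts [Finite G] {r : ℕ} (hr : r.Prime) (g : G) :
    ∃ u ∈ zpowers g, ∃ v ∈ zpowers g, g = u * v ∧ u * v = v * u ∧ (∃ e, u ^ r ^ e = 1) ∧
      (orderOf v).Coprime r ∧ ∃ e : ℕ, v ∈ zpowers (g ^ r ^ e) := by
  obtain ⟨e, n, hn, e1⟩ := Nat.exists_eq_pow_mul_and_not_dvd (orderOf_pos g).ne' r hr.ne_one
  have c : n.Coprime r := ((Nat.Prime.coprime_iff_not_dvd hr).2 hn).symm
  obtain ⟨a, b, hab⟩ := Nat.isCoprime_iff_coprime.2 (c.pow_right e)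
  refine ⟨(g ^ n) ^ a, zpow_mem (pow_mem (mem_zpowers g) _) _, (g ^ r ^ e) ^ b,
    zpow_mem (pow_mem (mem_zpowers g) _) _, ?_, ((Commute.pow_pow_self g _ _).zpow_zpow a b).eq,
    ⟨e, ?_⟩, c.coprime_dvd_left (orderOf_dvd_of_pow_eq_one ?_), e, zpow_mem (mem_zpowers _) _⟩
  · rw [← zpow_natCast, ← zpow_natCast, ← zpow_mul, ← zpow_mul, ← zpow_add, mul_comm _ a,
      mul_comm _ b, hab, zpow_one]
  · rw [← zpow_natCast _ (r ^ e), zpow_comm, zpow_natCast, ← pow_mul, mul_comm, ← e1,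
      pow_orderOf_eq_one, one_zpow]
  · rw [← zpow_natCast _ n, zpow_comm, zpow_natCast, ← pow_mul, ← e1, pow_orderOf_eq_one, one_zpow]

theorem oconj (g x : G) : orderOf (g * x * g⁻¹) = orderOf x :=
  (MulAut.conj g).orderOf_eq x

theorem cauchy [Finite G] {r : ℕ} (hr : r.Prime) {K : Subgroup G} (h : r ∣ Nat.card K) :
    ∃ z ∈ K, orderOf z = r :=
  haveI := Fact.mk hr
  let ⟨z, hz⟩ := exists_prime_orderOf_dvd_card' r h
  ⟨z, z.2, (Subgroup.orderOf_coe z).trans hz⟩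

theorem norm_zp [Finite G] {g w : G} (h : g * w * g⁻¹ ∈ zpowers w) :
    g ∈ normalizer (zpowers w : Set G) := mem_normalizer_fintype fun _ ⟨i, hi⟩ => by
  rw [← hi, ← conj_zpow]; exact zpow_mem h i

theorem mem_zp_of_cyc [Finite G] {P : Subgroup G} (hP : IsCyclic P) {x y : G} (hx : x ∈ P)
    (hy : y ∈ P) (h : orderOf x ∣ orderOf y) : x ∈ zpowers y :=
  let ⟨i, hi⟩ := Solv.Frob.mem_zpowers_of_orderOf_dvd (x := (⟨y, hy⟩ : P)) (y := ⟨x, hx⟩)
    (by rwa [← Subgroup.orderOf_coe, ← Subgroup.orderOf_coe])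
  ⟨i, congrArg Subtype.val hi⟩

theorem nil_mul [Finite G] {K : Subgroup G} (hK : Group.IsNilpotent K) {r : ℕ} (hr : r.Prime)
    {x y : G} (hx : x ∈ K) (hy : y ∈ K) (ex : ∃ e, x ^ r ^ e = 1) (ey : ∃ e, y ^ r ^ e = 1) :
    ∃ e, (x * y) ^ r ^ e = 1 := by
  have := Fact.mk hr
  obtain ⟨P⟩ : Nonempty (Sylow r K) := inferInstance
  have := P.unique_of_normal (Sylow.normal_of_normalizerCondition
    Group.normalizerCondition_of_isNilpotent P)
  have k : ∀ z : K, (∃ e, (z : G) ^ r ^ e = 1) → z ∈ (P : Subgroup K) := fun z ⟨e, he⟩ => by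
    obtain ⟨Q, hQ⟩ := (isPGroup_zpowers (g := z) (Subtype.ext he)).exists_le_sylow
    exact Subsingleton.elim Q P ▸ hQ (mem_zpowers z)
  exact (P.2 ⟨_, mul_mem (k ⟨x, hx⟩ ex) (k ⟨y, hy⟩ ey)⟩).imp fun e he =>
    congrArg (fun z => ((z : K) : G)) (congrArg Subtype.val he)

theorem fd_of_frob {Γ : Type*} [Group Γ] [Finite Γ] (f : Γ →* G) (hf : Function.Injective f)
    {H : Subgroup Γ} (hH : Cfsg.IsFrobeniusComplement H) :
    ∃ K, FD f.range K (H.map f) H.index (Nat.card H) := by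
  obtain ⟨N, h1, h2, hc⟩ := S0035.result H hH
  obtain ⟨N', h3, -, h4⟩ := S0042.result H hH
  obtain rfl : N' = N := SetLike.coe_injective (h3.trans h1.symm)
  have k1 := Subgroup.one_lt_index_of_ne_top hH.2.1
  have cN := hc.index_eq_card
  have fp := (S0039.result N' H hc ((Subgroup.one_lt_card_iff_ne_bot _).1 (cN ▸ k1)) hH.1).1 hH
  have cj : ∀ d, d ∉ N' → ∃ k ∈ N', k * d * k⁻¹ ∈ H := fun d hd => by
    have : d ∉ Cfsg.frobeniusKernel H := h1 ▸ hd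
    simp only [Cfsg.frobeniusKernel, Set.mem_ofPred_eq, not_or, not_forall, not_not] at this
    obtain ⟨-, g, hg⟩ := this
    rw [mem_pointwise_smul_iff_inv_smul_mem] at hg
    obtain ⟨⟨n, u⟩, rfl⟩ := hc.2 g
    refine ⟨n⁻¹, inv_mem n.2, ?_⟩
    have := mul_mem (mul_mem u.2 hg) (inv_mem u.2)
    simpa [mul_assoc] using this
  have cd : ∀ U : Subgroup Γ, Nat.card (U.map f) = Nat.card U := fun U =>
    (Nat.card_congr (U.equivMapOfInjective f hf).toEquiv).symm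
  refine ⟨N'.map f, map_le_range _ _, map_le_range _ _, (cd _).trans cN.symm, cd _, ?_, ?_, ?_, ?_,
    ?_, Group.nilpotent_of_mulEquiv (N'.equivMapOfInjective f hf),
    (Nat.modEq_iff_dvd' k1.le).1 (S0034.result H hH).2.symm, k1, H.one_lt_card_iff_ne_bot.2 hH.1⟩
  · rw [MonoidHom.range_eq_map, cd, card_top, H.index_mul_card]
  · rintro _ ⟨d, rfl⟩ _ ⟨k, hk, rfl⟩
    exact ⟨_, h2.conj_mem k hk d, by simp⟩
  · rintro _ ⟨d, rfl⟩ hd _ ⟨k, hk, rfl⟩ e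
    rw [← map_mul, ← map_mul] at e
    have hd' : d ∉ N' := fun e => hd ⟨d, e, rfl⟩
    obtain ⟨n, hn, hu⟩ := cj d hd'
    have := fp _ hu fun e => hd' (conj_eq_one_iff.1 e ▸ one_mem _)
    have k2 : n * k * n⁻¹ ∈ (⊥ : Subgroup Γ) := this ▸ mem_inf.2 ⟨h2.conj_mem k hk n,
      mem_centralizer_singleton_iff.2 (by rw [conj_mul, conj_mul, hf e])⟩
    rw [conj_eq_one_iff.1 (mem_bot.1 k2), map_one]
  · rintro _ ⟨d, rfl⟩ hd
    obtain ⟨n, hn, hu⟩ := cj d fun e => hd ⟨d, e, rfl⟩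
    exact ⟨_, ⟨n, hn, rfl⟩, _, hu, by simp⟩
  · rintro _ ⟨u, hu, rfl⟩ ⟨k, hk, e⟩
    rw [mem_bot.1 (hc.disjoint.le_bot (mem_inf.2 ⟨hf e ▸ hk, hu⟩)), map_one]

namespace FD

variable [Finite G] {D K H : Subgroup G} {κ m : ℕ} (F : FD D K H κ m)
include F

theorem cop : κ.Coprime m := by
  obtain ⟨c, hc⟩ := F.dvd
  have := F.k1
  rw [show κ = 1 + m * c by omega]
  simp

theorem pow_m {g : G} (hg : g ∈ D) (h : g ∉ K) : g ^ m = 1 := by
  obtain ⟨k, -, e⟩ := F.cj g hg h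
  have := orderOf_dvd_natCard _ e
  rwa [oconj, F.cH, orderOf_dvd_iff_pow_eq_one] at this

theorem mem_K {g : G} (hg : g ∈ D) : g ∈ K ↔ g ^ κ = 1 := by
  refine ⟨fun h => orderOf_dvd_iff_pow_eq_one.1 (F.cK ▸ orderOf_dvd_natCard _ h), fun h => ?_⟩
  by_contra e
  exact e (orderOf_eq_one_iff.1 (Nat.eq_one_of_dvd_coprimes F.cop (orderOf_dvd_of_pow_eq_one h)
    (orderOf_dvd_of_pow_eq_one (F.pow_m hg e))) ▸ one_mem _)

theorem norm : D ≤ normalizer (K : Set G) := fun d hd => mem_normalizer_fintype (F.nK d hd)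

theorem cen {d : G} (hd : d ∈ D) (h : d ∉ K) : K ⊓ centralizer {d} = ⊥ :=
  eq_bot_iff.2 fun k hk => F.fpf d hd h k hk.1 (mem_centralizer_singleton_iff.1 hk.2).symm

theorem mem_zp (hm : Odd m) {r : ℕ} (hr : r.Prime) {x y : G} (hx : x ∈ H) (hy : y ∈ H)
    (ox : orderOf x = r) (oy : orderOf y = r) : x ∈ zpowers y := by
  have := Fact.mk hr
  have K1 : K ≠ ⊥ := K.one_lt_card_iff_ne_bot.1 (F.cK ▸ F.k1)
  have fp : ∀ a ∈ H, a ≠ 1 → K ⊓ centralizer {a} = ⊥ := fun a ha a1 =>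
    F.cen (F.Hle ha) fun e => a1 (F.inf a ha e)
  have hN := F.Hle.trans F.norm
  have od : Odd (Nat.card H) := F.cH ▸ hm
  obtain ⟨w, hw, ow, nw⟩ : ∃ w ∈ H, orderOf w = r ∧ ∀ z ∈ H, z * w * z⁻¹ ∈ zpowers w := by
    by_cases hc : r ∣ Nat.card (⁅H, H⁆ : Subgroup G)
    · obtain ⟨w, hw, ow⟩ := cauchy hr hc
      have := Solv.Frob.isZGroup_of_fpf_of_odd od K1 hN fp
      have := IsZGroup.isCyclic_commutator H
      have c : IsCyclic ((_root_.commutator H).map H.subtype) := isCyclic_of_surjective _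
        ((_root_.commutator H).equivMapOfInjective _ H.subtype_injective).surjective
      rw [← Subgroup.map_subtype_commutator] at hw
      refine ⟨w, map_subtype_le _ hw, ow, fun z hz => mem_zp_of_cyc c ?_ hw (oconj z w).dvd⟩
      obtain ⟨v, hv, rfl⟩ := hw
      exact ⟨_, (inferInstance : (_root_.commutator H).Normal).conj_mem v hv ⟨z, hz⟩, rfl⟩
    · have := Solv.Frob.mem_centralizer_of_fpf_of_odd od K1 hN fp hx (ox ▸ hr)
        (ox ▸ (Nat.Prime.coprime_iff_not_dvd hr).2 hc)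
      exact ⟨x, hx, ox, fun z hz => by rw [this z hz, mul_inv_cancel_right]; exact mem_zpowers x⟩
  have pz : ∀ z : G, orderOf z = r → IsPGroup r (zpowers z) := fun z oz =>
    isPGroup_zpowers (e := 1) (by rw [pow_one, ← oz, pow_orderOf_eq_one])
  have k : ∀ z ∈ H, orderOf z = r → z ∈ zpowers w := fun z hz oz => by
    have le : zpowers w ⊔ zpowers z ≤ H := sup_le (zpowers_le.2 hw) (zpowers_le.2 hz)
    exact mem_zp_of_cyc (Solv.Frob.isCyclic_of_fpf_of_isPGroup ((pz w ow).to_sup_of_normal_left'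
      (pz z oz) (zpowers_le.2 (norm_zp (nw z hz)))) (fun e => od.not_two_dvd_nat
        (e ▸ ox ▸ orderOf_dvd_natCard _ hx)) K1 (le.trans hN) fun a ha => fp a (le ha))
      (mem_sup_right (mem_zpowers z)) (mem_sup_left (mem_zpowers w)) (by rw [oz, ow])
  exact mem_zp_of_cyc inferInstance (k x hx ox) (k y hy oy) (by rw [ox, oy])

end FD

variable [MulAction G Ω] [DecidableEq Ω] [Fintype Ω]

variable (G Ω) in
/-- The standing hypothesis. -/
structure Hy (κ m : ℕ) : Prop where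
  tr : Tr4 (⊤ : Subgroup G) (univ : Finset Ω)
  four : 4 ≤ Fintype.card Ω
  fd : ∀ S : Finset Ω, S.card = 4 → ∃ K H : Subgroup G, FD (fx G S) K H κ m

variable (G) in
/-- The Frobenius kernel of `fx G S`. -/
def KK (κ : ℕ) (S : Finset Ω) : Subgroup G := closure {g | g ∈ fx G S ∧ g ^ κ = 1}

variable (G) in
/-- The `r`-elements of `fx G S`. -/
def PP (r : ℕ) (S : Finset Ω) : Subgroup G := closure {g | g ∈ fx G S ∧ ∃ e, g ^ r ^ e = 1}

theorem KK_le (κ : ℕ) (S : Finset Ω) : KK G κ S ≤ fx G S := (closure_le _).2 fun _ h => h.1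

theorem PP_le (r : ℕ) (S : Finset Ω) : PP G r S ≤ fx G S := (closure_le _).2 fun _ h => h.1

theorem conj_mem_KK {κ : ℕ} {S : Finset Ω} {g : G} (hg : g ∈ KK G κ S) (x : G) :
    x * g * x⁻¹ ∈ KK G κ (x • S) :=
  (closure_le ((KK G κ (x • S)).comap (MulAut.conj x).toMonoidHom)).2 (fun g hg => subset_closure
    ⟨conj_mem_fx hg.1 x, by
      show (x * g * x⁻¹) ^ κ = 1
      rw [conj_pow, hg.2]; group⟩) hg

theorem conj_mem_PP {r : ℕ} {S : Finset Ω} {g : G} (hg : g ∈ PP G r S) (x : G) :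
    x * g * x⁻¹ ∈ PP G r (x • S) :=
  (closure_le ((PP G r (x • S)).comap (MulAut.conj x).toMonoidHom)).2 (fun g hg => subset_closure
    ⟨conj_mem_fx hg.1 x, hg.2.imp fun e he => by
      show (x * g * x⁻¹) ^ r ^ e = 1
      rw [conj_pow, he]; group⟩) hg

theorem KK_anti {κ : ℕ} {S S' : Finset Ω} (h : S ⊆ S') : KK G κ S' ≤ KK G κ S :=
  closure_mono fun _ hg => ⟨fx_anti h hg.1, hg.2⟩

theorem PP_anti {r : ℕ} {S S' : Finset Ω} (h : S ⊆ S') : PP G r S' ≤ PP G r S :=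
  closure_mono fun _ hg => ⟨fx_anti h hg.1, hg.2⟩

variable [Finite G] [FaithfulSMul G Ω]

/-- The hypothesis of the theorem gives `Hy`. -/
theorem exists_hy (h4 : IsMultiplyPretransitive G Ω 4) {a b c d : Ω} (hD : D4 a b c d)
    (hF : ∃ H : Subgroup ↥(stabilizer G a ⊓ stabilizer G b ⊓ stabilizer G c ⊓ stabilizer G d),
      Cfsg.IsFrobeniusComplement H) : ∃ κ m, Hy G Ω κ m := by
  obtain ⟨H, hH⟩ := hF
  have tr : Tr4 (⊤ : Subgroup G) (univ : Finset Ω) := by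
    rintro a b c d a' b' c' d' ⟨⟨h1, h2, h3, h4', h5, h6⟩, -⟩ ⟨⟨k1, k2, k3, k4, k5, k6⟩, -⟩
    obtain ⟨g, hg⟩ := four_trans_iff.1 h4 a b c d a' b' c' d' h1 h2 h3 h4' h5 h6 k1 k2 k3 k4 k5 k6
    exact ⟨g, mem_top g, hg⟩
  refine ⟨H.index, Nat.card H, tr, hD.card ▸ card_le_univ _, fun S hS => ?_⟩
  obtain ⟨x, rfl⟩ := tr.exists_smul hD.card hS
  obtain ⟨K, F⟩ := fd_of_frob ((MulAut.conj x).toMonoidHom.comp (Subgroup.subtype _))
    ((MulAut.conj x).injective.comp Subtype.val_injective) hH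
  rw [← le_antisymm (b := MonoidHom.range _) (fun g hg => ?_) ?_] at F
  · exact ⟨K, _, F⟩
  · rintro _ ⟨g, rfl⟩
    exact conj_mem_fx (mem_fx4.2 ⟨g.2.1.1.1, g.2.1.1.2, g.2.1.2, g.2.2⟩) x
  · have := conj_mem_fx hg x⁻¹
    rw [inv_smul_smul, mem_fx4] at this
    exact ⟨⟨_, ⟨⟨this.1, this.2.1⟩, this.2.2.1⟩, this.2.2.2⟩, by simp [mul_assoc]⟩

namespace Hy

variable {κ m : ℕ} (h : Hy G Ω κ m)
include h

theorem one : ∃ D K H : Subgroup G, FD D K H κ m :=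
  let ⟨S, _, h4⟩ := exists_subset_card_eq (s := (univ : Finset Ω)) h.four
  ⟨_, h.fd S h4⟩

theorem k1 : 1 < κ := let ⟨_, _, _, F⟩ := h.one; F.k1

theorem m1 : 1 < m := let ⟨_, _, _, F⟩ := h.one; F.m1

theorem dvd : m ∣ κ - 1 := let ⟨_, _, _, F⟩ := h.one; F.dvd

theorem cop : κ.Coprime m := let ⟨_, _, _, F⟩ := h.one; F.cop

theorem mem_KK {S : Finset Ω} (h4 : 4 ≤ S.card) {g : G} :
    g ∈ KK G κ S ↔ g ∈ fx G S ∧ g ^ κ = 1 := by
  obtain ⟨S₀, hs, h0⟩ := exists_subset_card_eq h4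
  obtain ⟨K, H, F⟩ := h.fd S₀ h0
  refine ⟨fun hg => ⟨KK_le _ _ hg, ?_⟩, fun hg => subset_closure hg⟩
  have : KK G κ S ≤ K := (closure_le _).2 fun x hx => (F.mem_K (fx_anti hs hx.1)).2 hx.2
  exact (F.mem_K (F.Kle (this hg))).1 (this hg)

theorem fd' {S : Finset Ω} (h4 : S.card = 4) : ∃ H, FD (fx G S) (KK G κ S) H κ m := by
  obtain ⟨K, H, F⟩ := h.fd S h4
  have : KK G κ S = K := by
    ext g
    rw [h.mem_KK h4.ge]
    exact ⟨fun hg => (F.mem_K hg.1).2 hg.2, fun hg => ⟨F.Kle hg, (F.mem_K (F.Kle hg)).1 hg⟩⟩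
  exact ⟨H, this ▸ F⟩

theorem card_KK {S : Finset Ω} (h4 : S.card = 4) : Nat.card (KK G κ S) = κ :=
  let ⟨_, F⟩ := h.fd' h4; F.cK

theorem card_fx {S : Finset Ω} (h4 : S.card = 4) : Nat.card (fx G S) = κ * m :=
  let ⟨_, F⟩ := h.fd' h4; F.cD

theorem can_KK : Can (KK G κ : Finset Ω → Subgroup G) :=
  ⟨h.tr, fun S _ => KK_le _ S, fun _ _ x _ hg => conj_mem_KK hg x,
    fun _ _ h1 _ _ hg hg' => subset_closure ⟨hg', ((h.mem_KK h1.ge).1 hg).2⟩⟩

/-- Elements of `D_S` outside the kernel have order dividing `m`. -/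
theorem pow_m {S : Finset Ω} (h4 : 4 ≤ S.card) {g : G} (hg : g ∈ fx G S) (hk : g ^ κ ≠ 1) :
    g ^ m = 1 := by
  obtain ⟨S₀, hs, h0⟩ := exists_subset_card_eq h4
  obtain ⟨K, H, F⟩ := h.fd S₀ h0
  exact F.pow_m (fx_anti hs hg) fun e => hk ((F.mem_K (fx_anti hs hg)).1 e)

/-- Elements of `D_S` outside the kernel centralise nothing in the kernel. -/
theorem fpf {S : Finset Ω} (h4 : 4 ≤ S.card) {g k : G} (hg : g ∈ fx G S) (hgk : g ^ κ ≠ 1)
    (hk : k ∈ fx G S) (hkk : k ^ κ = 1) (hc : g * k = k * g) : k = 1 := by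
  obtain ⟨S₀, hs, h0⟩ := exists_subset_card_eq h4
  obtain ⟨K, H, F⟩ := h.fd S₀ h0
  exact F.fpf g (fx_anti hs hg) (fun e => hgk ((F.mem_K (fx_anti hs hg)).1 e)) k
    ((F.mem_K (fx_anti hs hk)).2 hkk) hc

/-- The commutator of an element of `D_S` with an element of `K_S` lies in `K_S`. -/
theorem conj_KK {S : Finset Ω} {g k : G} (hg : g • S = S) (hk : k ∈ KK G κ S) :
    g * k * g⁻¹ ∈ KK G κ S := by
  have := conj_mem_KK hk g
  rwa [hg] at this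

/-- The kernel is nilpotent. -/
theorem comm_cop {S : Finset Ω} (h4 : 4 ≤ S.card) {x y : G} (hx : x ∈ KK G κ S)
    (hy : y ∈ KK G κ S) (hc : (orderOf x).Coprime (orderOf y)) : x * y = y * x := by
  obtain ⟨S₀, hs, h0⟩ := exists_subset_card_eq h4
  obtain ⟨H, F⟩ := h.fd' h0
  exact Solv.CN.commute_of_mem_of_isNilpotent F.nil (KK_anti hs hx) (KK_anti hs hy) hc

/-- An element of `D_S` outside the kernel has a power of prime order outside the kernel. -/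
theorem exists_prime {S : Finset Ω} (h4 : 4 ≤ S.card) {g : G} (hg : g ∈ fx G S) (hk : g ^ κ ≠ 1) :
    ∃ x ∈ zpowers g, ∃ r : ℕ, r.Prime ∧ r ∣ m ∧ orderOf x = r ∧ x ^ κ ≠ 1 := by
  have g1 : orderOf g ≠ 1 := fun e => hk (by rw [orderOf_eq_one_iff.1 e, one_pow])
  obtain ⟨r, hr, hd⟩ := Nat.exists_prime_and_dvd g1
  have rm := hd.trans (orderOf_dvd_of_pow_eq_one (h.pow_m h4 hg hk))
  have o := orderOf_pow_orderOf_div (orderOf_pos g).ne' hd
  exact ⟨_, pow_mem (mem_zpowers g) _, r, hr, rm, o, fun e => hr.ne_one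
    (Nat.eq_one_of_dvd_coprimes h.cop (o ▸ orderOf_dvd_of_pow_eq_one e) rm)⟩

theorem exists_not_KK {S : Finset Ω} (h4 : S.card = 4) : ∃ g ∈ fx G S, g ^ κ ≠ 1 := by
  obtain ⟨K, H, F⟩ := h.fd S h4
  obtain ⟨g, hg, g1⟩ := (H.bot_or_exists_ne_one).resolve_left
    (H.one_lt_card_iff_ne_bot.1 (F.cH ▸ F.m1))
  exact ⟨g, F.Hle hg, fun e => g1 (F.inf g hg ((F.mem_K (F.Hle hg)).2 e))⟩

theorem exists_KK {S : Finset Ω} (h4 : S.card = 4) : ∃ k ∈ KK G κ S, k ≠ 1 :=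
  (Subgroup.bot_or_exists_ne_one _).resolve_left
    ((Subgroup.one_lt_card_iff_ne_bot _).1 (by rw [h.card_KK h4]; exact h.k1))

theorem seven_le : 7 ≤ Fintype.card Ω := by
  by_contra hc
  obtain ⟨S, -, h4⟩ := exists_subset_card_eq (s := (univ : Finset Ω)) h.four
  obtain ⟨φ, hφ⟩ := exists_res (fx G S) Sᶜ fun g hg x hx => Finset.mem_compl.2 fun e =>
    Finset.mem_compl.1 hx (by
      have := hg _ e
      rwa [smul_left_cancel g this] at e)
  have inj : Function.Injective φ := (injective_iff_map_eq_one φ).2 fun g hg =>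
    Subtype.ext (eq_of_smul_eq_smul (α := Ω) fun x => by
      by_cases hx : x ∈ S
      · simpa using g.2 x hx
      · simpa [hg] using (hφ g ⟨x, Finset.mem_compl.2 hx⟩).symm)
  have h1 := Nat.card_le_card_of_injective φ inj
  rw [h.card_fx h4, Nat.card_perm, Nat.card_eq_finsetCard, card_compl, h4] at h1
  have h2 : (Fintype.card Ω - 4).factorial ≤ Nat.factorial 2 := Nat.factorial_le (by omega)
  have h3 : 2 * 2 ≤ κ * m := Nat.mul_le_mul h.k1 h.m1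
  rw [Nat.factorial_two] at h2
  omega

theorem card_G : Nat.card G = (Fintype.card Ω).descFactorial 4 * (κ * m) := by
  obtain ⟨S, -, h4⟩ := exists_subset_card_eq (s := (univ : Finset Ω)) h.four
  have e : (S : Set Ω).ncard = 4 := by rw [Set.ncard_coe_finset, h4]
  have t : IsMultiplyPretransitive G Ω 4 := four_trans_iff.2
    fun a b c d a' b' c' d' h1 h2 h3 h4 h5 h6 k1 k2 k3 k4 k5 k6 =>
      let ⟨g, _, hg⟩ := h.tr a b c d a' b' c' d' ⟨⟨h1, h2, h3, h4, h5, h6⟩, by simp⟩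
        ⟨⟨k1, k2, k3, k4, k5, k6⟩, by simp⟩
      ⟨g, hg⟩
  have e2 : fixingSubgroup G (S : Set Ω) = fx G S := by
    ext g
    rw [mem_fixingSubgroup_iff]; rfl
  have := IsMultiplyPretransitive.index_of_fixingSubgroup_eq (G := G) (S : Set Ω) (e ▸ t)
  rw [e, e2, Nat.card_eq_fintype_card] at this
  rw [← (fx G S).index_mul_card, this, h.card_fx h4, Nat.descFactorial_eq_factorial_mul_choose,
    mul_comm (Nat.factorial 4)]

/-! ### Primes not dividing `m` -/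

theorem mem_KK_of {r : ℕ} (hr : r.Prime) (hm : ¬ r ∣ m) {S : Finset Ω} (h4 : 4 ≤ S.card) {g : G}
    (hg : g ∈ fx G S) (e : ∃ e, g ^ r ^ e = 1) : g ∈ KK G κ S := by
  obtain ⟨e, he⟩ := e
  by_contra hc
  exact hc (orderOf_eq_one_iff.1 (Nat.eq_one_of_dvd_coprimes
    (((Nat.Prime.coprime_iff_not_dvd hr).2 hm).pow_left e) (orderOf_dvd_of_pow_eq_one he)
    (orderOf_dvd_of_pow_eq_one (h.pow_m h4 hg fun e => hc (subset_closure ⟨hg, e⟩)))) ▸ one_mem _)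

theorem mem_PP {r : ℕ} (hr : r.Prime) (hm : ¬ r ∣ m) {S : Finset Ω} (h4 : 4 ≤ S.card) {g : G} :
    g ∈ PP G r S ↔ g ∈ fx G S ∧ ∃ e, g ^ r ^ e = 1 := by
  refine ⟨fun hg => ⟨PP_le _ _ hg, ?_⟩, fun hg => subset_closure hg⟩
  obtain ⟨S₀, hs, h0⟩ := exists_subset_card_eq h4
  obtain ⟨H, F⟩ := h.fd' h0
  have k : ∀ x, x ∈ fx G S → (∃ e, x ^ r ^ e = 1) → x ∈ KK G κ S₀ := fun x hx e =>
    KK_anti hs (h.mem_KK_of hr hm h4 hx e)
  induction hg using closure_induction with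
  | mem x hx => exact hx.2
  | one => exact ⟨0, one_pow _⟩
  | mul x y hx hy ex ey =>
    exact nil_mul F.nil hr (k x (PP_le _ _ hx) ex) (k y (PP_le _ _ hy) ey) ex ey
  | inv x _ ex => exact ex.imp fun e he => by rw [inv_pow, he, inv_one]

theorem PP_le_KK {r : ℕ} (hr : r.Prime) (hm : ¬ r ∣ m) {S : Finset Ω} (h4 : 4 ≤ S.card) :
    PP G r S ≤ KK G κ S :=
  (closure_le _).2 fun _ hx => h.mem_KK_of hr hm h4 hx.1 hx.2

theorem isPGroup_PP {r : ℕ} (hr : r.Prime) (hm : ¬ r ∣ m) {S : Finset Ω} (h4 : 4 ≤ S.card) :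
    IsPGroup r (PP G r S) :=
  fun g => ((h.mem_PP hr hm h4).1 g.2).2.imp fun _ he => Subtype.ext he

theorem can_PP {r : ℕ} (hr : r.Prime) (hm : ¬ r ∣ m) : Can (PP G r : Finset Ω → Subgroup G) :=
  ⟨h.tr, fun S _ => PP_le _ S, fun _ _ x _ hg => conj_mem_PP hg x,
    fun _ _ h1 _ _ hg hg' => subset_closure ⟨hg', ((h.mem_PP hr hm h1.ge).1 hg).2⟩⟩

theorem exists_PP {r : ℕ} (hr : r.Prime) (hk : r ∣ κ) {S : Finset Ω} (h4 : S.card = 4) :
    ∃ z ∈ PP G r S, z ≠ 1 ∧ z ^ r = 1 := by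
  obtain ⟨z, hz, o⟩ := cauchy hr (h.card_KK h4 ▸ hk)
  have e : z ^ r = 1 := o ▸ pow_orderOf_eq_one z
  exact ⟨z, subset_closure ⟨KK_le _ _ hz, 1, by rwa [pow_one]⟩,
    fun e1 => hr.ne_one (by rw [← o, e1, orderOf_one]), e⟩

/-- `K_S = PP r S × O`, where `O` centralises `PP r S`. -/
theorem KK_dec {r : ℕ} (hr : r.Prime) (hm : ¬ r ∣ m) {S : Finset Ω} (h4 : 4 ≤ S.card) {k : G}
    (hk : k ∈ KK G κ S) : ∃ u ∈ PP G r S, ∃ v ∈ KK G κ S, k = u * v ∧ k = v * u ∧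
      (orderOf v).Coprime r ∧ ∀ x ∈ PP G r S, v * x = x * v := by
  obtain ⟨u, hu, v, hv, e1, e2, e3, e4, -⟩ := exists_parts hr k
  have hv' := zpowers_le.2 hk hv
  refine ⟨u, subset_closure ⟨KK_le _ _ (zpowers_le.2 hk hu), e3⟩, v, hv', e1, e1.trans e2, e4,
    fun x hx => h.comm_cop h4 hv' (h.PP_le_KK hr hm h4 hx) ?_⟩
  obtain ⟨e, he⟩ := ((h.mem_PP hr hm h4).1 hx).2
  exact (e4.pow_right e).coprime_dvd_right (orderOf_dvd_of_pow_eq_one he)

/-! ### `m` odd -/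

/-- Subgroups of the same prime order outside the kernel are conjugate under the kernel. -/
theorem B4 (hm : Odd m) {S : Finset Ω} (h4 : S.card = 4) {r : ℕ} (hr : r.Prime) {x y : G}
    (hx : x ∈ fx G S) (hy : y ∈ fx G S) (ox : orderOf x = r) (oy : orderOf y = r)
    (hk : x ^ κ ≠ 1) : ∃ k ∈ KK G κ S, k * x * k⁻¹ ∈ zpowers y := by
  obtain ⟨H, F⟩ := h.fd' h4
  have rm : r ∣ m := ox ▸ orderOf_dvd_of_pow_eq_one (h.pow_m h4.ge hx hk)
  obtain ⟨k, hk1, e1⟩ := F.cj x hx fun e => hk ((F.mem_K hx).1 e)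
  obtain ⟨l, hl, e2⟩ := F.cj y hy fun e => hr.ne_one (Nat.eq_one_of_dvd_coprimes h.cop
    (oy ▸ orderOf_dvd_of_pow_eq_one ((F.mem_K hy).1 e)) rm)
  obtain ⟨i, hi⟩ := F.mem_zp hm hr e1 e2 ((oconj k x).trans ox) ((oconj l y).trans oy)
  refine ⟨l⁻¹ * k, mul_mem (inv_mem hl) hk1, i, ?_⟩
  simp only [conj_zpow] at hi ⊢
  rw [show l⁻¹ * k * x * (l⁻¹ * k)⁻¹ = l⁻¹ * (k * x * k⁻¹) * l by group, ← hi]; group

/-- Witt's lemma and M. Hall's theorem for the normaliser of a subgroup of prime order outside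
the kernel. -/
theorem hall_pr (hm : Odd m) {r : ℕ} (hr : r.Prime) {x : G} (ox : orderOf x = r)
    (hk : x ^ κ ≠ 1) (h4 : 4 ≤ (Fx Ω x).card) :
    ((Fx Ω x).card = 4 ∨ (Fx Ω x).card = 5 ∨ (Fx Ω x).card = 6 ∨ (Fx Ω x).card = 7 ∨
      (Fx Ω x).card = 11) ∧
    ((Fx Ω x).card = 7 → ∀ a b c d e e', In4 (Fx Ω x) a b c d → e ∈ Fx Ω x → e' ∈ Fx Ω x →
      e ∉ ({a, b, c, d} : Finset Ω) → e' ∉ ({a, b, c, d} : Finset Ω) →
      ∃ g : G, g * x * g⁻¹ ∈ zpowers x ∧ g • a = a ∧ g • b = b ∧ g • c = c ∧ g • d = d ∧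
        g • e = e') ∧
    ((Fx Ω x).card ≠ 7 → ∀ g : G, g * x * g⁻¹ ∈ zpowers x → ∀ a b c d, In4 (Fx Ω x) a b c d →
      g ∈ fx G {a, b, c, d} → g ∈ fx G (Fx Ω x)) := by
  have mN : ∀ g : G, g * x * g⁻¹ ∈ zpowers x → g ∈ normalizer (zpowers x : Set G) := fun _ => norm_zp
  have Nm : ∀ g ∈ normalizer (zpowers x : Set G), g * x * g⁻¹ ∈ zpowers x := fun g hg =>
    (mem_normalizer_iff.1 hg x).1 (mem_zpowers x)
  have fS : ∀ S ⊆ Fx Ω x, x ∈ fx G S := fun S hS y hy => mem_Fx.1 (hS hy)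
  obtain ⟨h1, -, h2, h3⟩ := hall (N := normalizer (zpowers x : Set G)) (Γ := Fx Ω x)
    (fun g hg y hy => mem_Fx.2 (by
      have := zpow_smul_eq (mem_Fx.1 hy) (Nm _ (inv_mem hg))
      rwa [inv_inv, mul_smul, mul_smul, inv_smul_eq_iff] at this))
    (fun a b c d a' b' c' d' k k' => by
      obtain ⟨g, -, rfl, rfl, rfl, rfl⟩ := h.tr a b c d a' b' c' d' ⟨k.1, by simp⟩ ⟨k'.1, by simp⟩
      obtain ⟨l, hl, e⟩ := h.B4 hm k'.1.card hr (smul4 g a b c d ▸ conj_mem_fx (fS _ k.sub) g)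
        (fS _ k'.sub) ((oconj g x).trans ox) ox (by
          rw [conj_pow]; exact fun e => hk (conj_eq_one_iff.1 e))
      obtain ⟨e1, e2, e3, e4⟩ := mem_fx4.1 (KK_le _ _ hl)
      exact ⟨l * g, mN _ (by rwa [show l * g * x * (l * g)⁻¹ = l * (g * x * g⁻¹) * l⁻¹ by group]),
        by rw [mul_smul, e1], by rw [mul_smul, e2], by rw [mul_smul, e3], by rw [mul_smul, e4]⟩)
    h4 (fun g hg h5 h6 y hy => by
      have gS : g ∈ fx G ((Fx Ω x).filter fun y => g • y = y) := fun y hy => (mem_filter.1 hy).2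
      have xS := fS _ (filter_subset (fun y => g • y = y) _)
      by_cases gk : g ^ κ = 1
      · have c1 : g * x * g⁻¹ * x⁻¹ ∈ zpowers x := mul_mem (Nm g hg) (inv_mem (mem_zpowers x))
        have gK := (h.mem_KK h5).2 ⟨gS, gk⟩
        have c2 := mul_mem gK (h.conj_KK (smul_eq_of_mem fun y hy => by rwa [xS y hy]) (inv_mem gK))
        rw [← mul_assoc, ← mul_assoc] at c2
        have rm : r ∣ m := ox ▸ orderOf_dvd_of_pow_eq_one (h.pow_m h5 xS hk)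
        have := orderOf_eq_one_iff.1 (Nat.eq_one_of_dvd_coprimes h.cop
          (orderOf_dvd_of_pow_eq_one ((h.mem_KK h5).1 c2).2)
          (((orderOf_dvd_of_mem_zpowers c1).trans ox.dvd).trans rm))
        rw [h.fpf h5 xS hk gS gk (by
          rw [mul_inv_eq_one, mul_inv_eq_iff_eq_mul] at this; exact this.symm), one_smul]
      · obtain ⟨j, hj⟩ := hm
        have e := h.pow_m h5 gS gk
        have e2 := zpow_smul_eq (g := g * g) (x := y) (by rw [mul_smul]; exact h6 y hy)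
          (pow_mem (mem_zpowers _) j)
        rw [hj, pow_succ', pow_mul, sq] at e
        rw [← e2, ← mul_smul, e, one_smul, e2])
  refine ⟨h1, fun h7 a b c d e e' k he he' n n' => ?_, fun h7 g hg a b c d k hg' => ?_⟩
  · obtain ⟨g, hg, e⟩ := h2 h7 a b c d e e' k he he' n n'
    exact ⟨g, Nm g hg, e⟩
  · obtain ⟨e1, e2, e3, e4⟩ := mem_fx4.1 hg'
    exact h3 h7 g (mN g hg) (In4.le_card ⟨k.1, mem_filter.2 ⟨k.2.1, e1⟩, mem_filter.2 ⟨k.2.2.1, e2⟩,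
      mem_filter.2 ⟨k.2.2.2.1, e3⟩, mem_filter.2 ⟨k.2.2.2.2, e4⟩⟩)

/-! ### `m` even -/

theorem k_odd (hm : Even m) : Odd κ :=
  Nat.coprime_two_right.1 (h.cop.coprime_dvd_right hm.two_dvd)

theorem invol_pow (hm : Even m) {t : G} (t1 : t ≠ 1) (t2 : t * t = 1) : t ^ κ ≠ 1 := fun e => by
  obtain ⟨j, hj⟩ := h.k_odd hm
  rw [hj, pow_succ, pow_mul, sq, t2, one_pow, one_mul] at e
  exact t1 e

theorem exists_invol (hm : Even m) {S : Finset Ω} (h4 : S.card = 4) :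
    ∃ t ∈ fx G S, t ≠ 1 ∧ t * t = 1 := by
  obtain ⟨K, H, F⟩ := h.fd S h4
  obtain ⟨t, ht, o⟩ := cauchy Nat.prime_two (F.cH ▸ hm.two_dvd : 2 ∣ Nat.card H)
  exact ⟨t, F.Hle ht, fun e => by simp [e] at o, by rw [← sq, ← o, pow_orderOf_eq_one]⟩

theorem invol_inv (hm : Even m) {S : Finset Ω} (h4 : 4 ≤ S.card) {t k : G} (ht : t ∈ fx G S)
    (t1 : t ≠ 1) (t2 : t * t = 1) (hk : k ∈ KK G κ S) : t * k * t⁻¹ = k⁻¹ := by
  obtain ⟨S₀, hs, h0⟩ := exists_subset_card_eq h4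
  obtain ⟨H, F⟩ := h.fd' h0
  have t0 := fx_anti hs ht
  exact Solv.CN.inverts_of_fpf (F.norm t0) t2
    (F.cen t0 fun e => h.invol_pow hm t1 t2 ((F.mem_K t0).1 e)) (KK_anti hs hk)

theorem mul_invol (hm : Even m) {S : Finset Ω} (h4 : 4 ≤ S.card) {s t : G} (hs : s ∈ fx G S)
    (s1 : s ≠ 1) (s2 : s * s = 1) (ht : t ∈ fx G S) (t1 : t ≠ 1) (t2 : t * t = 1) :
    t * s ∈ KK G κ S := by
  refine subset_closure ⟨mul_mem ht hs, ?_⟩
  by_contra hc
  obtain ⟨S₀, h1, h0⟩ := exists_subset_card_eq h4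
  obtain ⟨k, hk, k1⟩ := h.exists_KK h0
  refine k1 (h.fpf h0.ge (fx_anti h1 (mul_mem ht hs)) hc (KK_le _ _ hk) ((h.mem_KK h0.ge).1 hk).2 ?_)
  rw [← mul_inv_eq_iff_eq_mul, show t * s * k * (t * s)⁻¹ = t * (s * k * s⁻¹) * t⁻¹ by group,
    h.invol_inv hm h0.ge (fx_anti h1 hs) s1 s2 hk,
    h.invol_inv hm h0.ge (fx_anti h1 ht) t1 t2 (inv_mem hk), inv_inv]

theorem KK_comm (hm : Even m) {S : Finset Ω} (h4 : S.card = 4) {x y : G} (hx : x ∈ KK G κ S)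
    (hy : y ∈ KK G κ S) : x * y = y * x := by
  obtain ⟨t, ht, t1, t2⟩ := h.exists_invol hm h4
  have := h.invol_inv hm h4.ge ht t1 t2 (mul_mem hx hy)
  rw [show t * (x * y) * t⁻¹ = t * x * t⁻¹ * (t * y * t⁻¹) by group, h.invol_inv hm h4.ge ht t1 t2 hx,
    h.invol_inv hm h4.ge ht t1 t2 hy, ← mul_inv_rev, inv_inj] at this
  exact this.symm

theorem invol_conj (hm : Even m) {S : Finset Ω} (h4 : S.card = 4) {s t : G} (hs : s ∈ fx G S)
    (s1 : s ≠ 1) (s2 : s * s = 1) (ht : t ∈ fx G S) (t1 : t ≠ 1) (t2 : t * t = 1) :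
    ∃ k ∈ KK G κ S, k * s * k⁻¹ = t := by
  have u := h.mul_invol hm h4.ge hs s1 s2 ht t1 t2
  obtain ⟨j, hj⟩ := h.k_odd hm
  have e := ((h.mem_KK h4.ge).1 u).2
  have k := pow_mem u (j + 1)
  refine ⟨_, k, ?_⟩
  have e1 := h.invol_inv hm h4.ge hs s1 s2 (inv_mem k)
  rw [inv_inv, mul_inv_eq_iff_eq_mul] at e1
  rw [mul_assoc, e1, ← mul_assoc, ← pow_add, show j + 1 + (j + 1) = κ + 1 by omega, pow_succ, e,
    one_mul, mul_assoc, s2, mul_one]

/-- No four-group fixes four points. -/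
theorem invol_eq (hm : Even m) {S : Finset Ω} (h4 : 4 ≤ S.card) {s t : G} (hs : s ∈ fx G S)
    (s1 : s ≠ 1) (s2 : s * s = 1) (ht : t ∈ fx G S) (t1 : t ≠ 1) (t2 : t * t = 1)
    (hc : s * t = t * s) : s = t := by
  have u := ((h.mem_KK h4).1 (h.mul_invol hm h4 hs s1 s2 ht t1 t2)).2
  have : t * s = 1 := by
    by_contra e
    exact h.invol_pow hm e (by rw [mul_assoc, ← mul_assoc s, hc, mul_assoc, s2, mul_one, t2]) u
  exact mul_left_cancel (this.trans t2.symm)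

/-- A `2`-element stabilising a four-set `S` centralises an involution of `D_S`. -/
theorem exists_comm_invol (hm : Even m) {S : Finset Ω} (h4 : S.card = 4) {s : G} {e : ℕ}
    (s2 : s ^ 2 ^ e = 1) (hs : s • S = S) :
    ∃ t ∈ fx G S, t ≠ 1 ∧ t * t = 1 ∧ s * t = t * s := by
  classical
  have := Fintype.ofFinite G
  obtain ⟨t, ht, t1, t2⟩ := h.exists_invol hm h4
  obtain ⟨x, hx, e⟩ := exists_comm Nat.prime_two s2
    (univ.filter fun x => x ∈ fx G S ∧ x ≠ 1 ∧ x * x = 1) (fun x hx => by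
      obtain ⟨-, h1, h2, h3⟩ := mem_filter.1 hx
      exact mem_filter.2 ⟨mem_univ _, hs ▸ conj_mem_fx h1 s, fun e => h2 (conj_eq_one_iff.1 e),
        by rw [conj_mul, h3]; group⟩) (by
      rw [← Nat.card_eq_finsetCard, Nat.card_congr (β := KK G κ S)
        (α := (univ.filter fun x => x ∈ fx G S ∧ x ≠ 1 ∧ x * x = 1 : Finset G))
        ⟨fun x => ⟨x * t, by
            obtain ⟨-, h1, h2, h3⟩ := mem_filter.1 x.2
            exact h.mul_invol hm h4.ge ht t1 t2 h1 h2 h3⟩,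
          fun k => ⟨k * t, mem_filter.2 ⟨mem_univ _, mul_mem (KK_le _ _ k.2) ht, fun e =>
            h.invol_pow hm t1 t2 ((h.mem_KK h4.ge).1 ((KK G κ S).mul_mem_cancel_left k.2 |>.1
              (e ▸ one_mem _))).2, by
            have := h.invol_inv hm h4.ge ht t1 t2 k.2
            rw [inv_eq_of_mul_eq_one_right t2] at this
            rw [mul_assoc, ← mul_assoc t, this, mul_inv_cancel]⟩⟩,
          fun x => Subtype.ext (by simp [mul_assoc, t2]),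
          fun x => Subtype.ext (by simp [mul_assoc, t2])⟩, h.card_KK h4]
      exact (h.k_odd hm).not_two_dvd_nat)
  obtain ⟨-, h1, h2, h3⟩ := mem_filter.1 hx
  exact ⟨x, h1, h2, h3, e⟩

/-- Involutions with at least four fixed points are conjugate. -/
theorem invol_conj' (hm : Even m) {s t : G} (s1 : s ≠ 1) (s2 : s * s = 1)
    (hs : 4 ≤ (Fx Ω s).card) (t1 : t ≠ 1) (t2 : t * t = 1) (ht : 4 ≤ (Fx Ω t).card) :
    ∃ g : G, g * s * g⁻¹ = t := by
  obtain ⟨S, h1, h2⟩ := exists_subset_card_eq hs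
  obtain ⟨S', h3, h4⟩ := exists_subset_card_eq ht
  obtain ⟨g, rfl⟩ := h.tr.exists_smul h2 h4
  obtain ⟨k, -, e⟩ := h.invol_conj hm h4 (conj_mem_fx (fun y hy => mem_Fx.1 (h1 hy)) g)
    (fun e => s1 (conj_eq_one_iff.1 e)) (by rw [conj_mul, s2]; group)
    (fun y hy => mem_Fx.1 (h3 hy)) t1 t2
  exact ⟨k * g, by rw [← e]; group⟩

theorem card_Fx_eq (hm : Even m) {s t : G} (s1 : s ≠ 1) (s2 : s * s = 1)
    (hs : 4 ≤ (Fx Ω s).card) (t1 : t ≠ 1) (t2 : t * t = 1) (ht : 4 ≤ (Fx Ω t).card) :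
    (Fx Ω s).card = (Fx Ω t).card := by
  obtain ⟨g, rfl⟩ := h.invol_conj' hm s1 s2 hs t1 t2 ht
  exact (card_Fx_conj g s).symm

/-- An involution with at least four fixed points acting as `(a b)(c)(d)`. -/
theorem exists_swap (hm : Even m) {a b c d : Ω} (hD : D4 a b c d) :
    ∃ s : G, s * s = 1 ∧ 4 ≤ (Fx Ω s).card ∧ s • a = b ∧ s • b = a ∧ s • c = c ∧ s • d = d := by
  obtain ⟨t, ht, t1, t2⟩ := h.exists_invol hm hD.card
  obtain ⟨e1, e2, e3, e4⟩ := mem_fx4.1 ht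
  obtain ⟨p, hp⟩ : ∃ p : Ω, t • p ≠ p := by
    by_contra hc
    push Not at hc
    exact t1 (eq_of_smul_eq_smul (α := Ω) fun p => by rw [hc, one_smul])
  have n : ∀ y : Ω, t • y = y → p ≠ y ∧ t • p ≠ y := fun y hy =>
    ⟨fun e => hp (e ▸ hy), fun e => hp (e.trans (smul_left_cancel t (e.trans hy.symm)).symm)⟩
  obtain ⟨g, -, rfl, rfl, k3, k4⟩ := h.tr p (t • p) c d a b c d
    ⟨⟨hp.symm, (n c e3).1, (n d e4).1, (n c e3).2, (n d e4).2, hD.2.2.2.2.2⟩, by simp⟩ ⟨hD, by simp⟩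
  have k : ∀ y : Ω, (g * t * g⁻¹) • g • y = g • t • y := fun y => by simp [mul_smul]
  refine ⟨g * t * g⁻¹, by rw [conj_mul, t2]; group, ?_, k p, by rw [k, invol_smul t2],
    by rw [← k3, k, k3, e3, k3], by rw [← k4, k, k4, e4, k4]⟩
  rw [card_Fx_conj]
  exact In4.le_card ⟨hD, mem_Fx.2 e1, mem_Fx.2 e2, mem_Fx.2 e3, mem_Fx.2 e4⟩

/-- Witt's lemma for an involution. -/
theorem tr_cent (hm : Even m) {t : G} (t1 : t ≠ 1) (t2 : t * t = 1) :
    Tr4 (centralizer {t}) (Fx Ω t) := by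
  intro a b c d a' b' c' d' k k'
  obtain ⟨g, -, rfl, rfl, rfl, rfl⟩ := h.tr a b c d a' b' c' d' ⟨k.1, by simp⟩ ⟨k'.1, by simp⟩
  obtain ⟨l, hl, e⟩ := h.invol_conj hm k'.1.card
    (smul4 g a b c d ▸ conj_mem_fx (fun y hy => mem_Fx.1 (k.sub hy)) g)
    (fun e => t1 (conj_eq_one_iff.1 e)) (by rw [conj_mul, t2]; group)
    (fun y hy => mem_Fx.1 (k'.sub hy)) t1 t2
  obtain ⟨e1, e2, e3, e4⟩ := mem_fx4.1 (KK_le _ _ hl)
  exact ⟨l * g, mem_centralizer_singleton_iff.2 (by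
    rw [← mul_inv_eq_iff_eq_mul]; exact Eq.trans (by group) e), by rw [mul_smul, e1], by rw [mul_smul, e2], by rw [mul_smul, e3], by rw [mul_smul, e4]⟩

end Hy

end Cfsg.Agent.Fr4
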