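import Mathlib
import Cfsg.Agent.Fr4.Frob
import Cfsg.Agent.S0713

/-! Complement of even order, odd degree: small degrees and a lemma on `2`-groups.
(Read `Fr4/Frob` (API `Hy.*`), `Fr4/Base`, `Fr4/Blk`.) -/

set_option autoImplicit false
set_option linter.unusedSectionVars false
set_option linter.style.haveILetI false

namespace Cfsg.Agent.Fr4

open Subgroup MulAction Cfsg.Agent.Perm Cfsg.Agent.Perm.Hall4 Finset
open scoped Pointwise

variable {G Ω : Type*} [Group G] [MulAction G Ω] [DecidableEq Ω] [Fintype Ω] [Finite G]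
  [FaithfulSMul G Ω] {κ m : ℕ}

/-- PROOF.  `κ, m > 1` are coprime so `κ * m ≥ 6`; `card_G` gives `|G| ≥ 840 * 6 = 7!`; the
injective `MulAction.toPermHom G Ω` is bijective; transport along `Fintype.equivFinOfCardEq`
(`Equiv.permCongrHom`). -/
theorem Hy.iso7 (h : Hy G Ω κ m) (h7 : Fintype.card Ω = 7) :
    Nonempty (G ≃* Equiv.Perm (Fin 7)) := by
  have h1 := h.card_G
  have h2 : 6 ≤ κ * m := by
    have a := h.k1
    have b := h.m1
    have c := Nat.le_of_dvd (by omega) h.dvd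
    nlinarith [show 3 ≤ κ by omega]
  rw [h7, show Nat.descFactorial 7 4 = 840 by decide] at h1
  have h3 : Nat.card (Equiv.Perm Ω) = 5040 := by
    rw [Nat.card_eq_fintype_card, Fintype.card_perm, h7]; decide
  have hi : Function.Injective (toPermHom G Ω) := toPerm_injective
  have hb : Function.Bijective (toPermHom G Ω) := (Nat.bijective_iff_injective_and_card _).2
    ⟨hi, le_antisymm (Nat.card_le_card_of_injective _ hi) (by omega)⟩
  exact ⟨(MulEquiv.ofBijective _ hb).trans (Fintype.equivFinOfCardEq h7).permCongrHom⟩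

namespace AO1

theorem par {t : G} (t2 : t * t = 1) (S : Finset Ω) (hS : ∀ x ∈ S, t • x ∈ S) :
    S.card % 2 = (S ∩ Fx Ω t).card % 2 := by
  have := modEq_fix1 (e := 1) Nat.prime_two (g := t) (by rw [pow_one, sq, t2]) S hS
  unfold Nat.ModEq at this
  rw [this]
  congr 2
  ext x; simp

theorem not_mem {g t : G} (hg : g * t = t * g) {x : Ω} (hx : x ∉ Fx Ω t) : g • x ∉ Fx Ω t := fun h =>
  hx (by simpa using smul_mem_Fx (g := g⁻¹) (Commute.inv_left hg).eq h)

theorem in4 {Γ : Finset Ω} (h4 : 4 ≤ Γ.card) {a : Ω} (ha : a ∈ Γ) : ∃ b c d, In4 Γ a b c d := by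
  obtain ⟨S, h1, h3⟩ := exists_subset_card_eq (s := Γ.erase a) (n := 3)
    (by rw [card_erase_of_mem ha]; omega)
  obtain ⟨b, c, d, k1, k2, k3, rfl⟩ := card_eq_three.1 h3
  have hb := mem_erase.1 (h1 (show b ∈ _ by simp))
  have hc := mem_erase.1 (h1 (show c ∈ _ by simp))
  have hd := mem_erase.1 (h1 (show d ∈ _ by simp))
  exact ⟨b, c, d, ⟨hb.1.symm, hc.1.symm, hd.1.symm, k1, k2, k3⟩, ha, hb.2, hc.2, hd.2⟩

theorem five (h : Hy G Ω κ m) (hm : Even m) (n : Fintype.card Ω = 13) {t : G} (t1 : t ≠ 1)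
    (t2 : t * t = 1) (h4 : 4 ≤ (Fx Ω t).card) : (Fx Ω t).card = 5 := by
  have odd : ∀ {u : G}, u * u = 1 → (Fx Ω u).card % 2 = 1 := fun {u} u2 => by
    have := par u2 (univ : Finset Ω) fun _ _ => mem_univ _
    rw [univ_inter, card_univ, n] at this
    exact this.symm
  obtain ⟨x, hx⟩ : ∃ x : Ω, t • x ≠ x := by
    by_contra hc
    push Not at hc
    exact t1 (FaithfulSMul.eq_of_smul_eq_smul (α := Ω) fun x => by rw [hc, one_smul])
  obtain ⟨c, d, -, -, ⟨cd, -⟩, hc, hd, -⟩ := exists_In4 h4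
  have ttx : t • t • x = x := by rw [← mul_smul, t2, one_smul]
  rw [mem_Fx] at hc hd
  have hD : D4 x (t • x) c d := ⟨hx.symm, fun e => hx (e ▸ hc), fun e => hx (e ▸ hd),
    fun e => hx (by rw [← ttx, e, hc, hc]), fun e => hx (by rw [← ttx, e, hd, hd]), cd⟩
  obtain ⟨s, hs, s1, s2, ts⟩ := h.exists_comm_invol hm hD.card (s := t) (e := 1)
    (by rw [pow_one, sq, t2]) (smul_eq_of_mem fun y hy => by
      simp only [mem_insert, mem_singleton] at hy ⊢
      rcases hy with rfl | rfl | rfl | rfl <;> simp [*])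
  have st : s ≠ t := fun e => hx (e ▸ hs x (by simp))
  have s4 : 4 ≤ (Fx Ω s).card := hD.card ▸ card_le_card fun y hy => mem_Fx.2 (hs y hy)
  have e1 := h.card_Fx_eq hm s1 s2 s4 t1 t2 h4
  have p1 := par t2 (Fx Ω s) fun y hy => smul_mem_Fx ts hy
  have i3 : (Fx Ω s ∩ Fx Ω t).card ≤ 3 := by
    by_contra hc
    exact st (h.invol_eq hm (S := Fx Ω s ∩ Fx Ω t) (by omega)
      (fun y hy => mem_Fx.1 (mem_inter.1 hy).1) s1 s2 (fun y hy => mem_Fx.1 (mem_inter.1 hy).2) t1 t2
      ts.symm)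
  have i2 : 2 ≤ (Fx Ω s ∩ Fx Ω t).card := card_pair cd ▸ card_le_card (fun y hy => by
    simp only [mem_insert, mem_singleton] at hy
    rcases hy with rfl | rfl
    exacts [mem_inter.2 ⟨mem_Fx.2 (hs _ (by simp)), mem_Fx.2 hc⟩,
      mem_inter.2 ⟨mem_Fx.2 (hs _ (by simp)), mem_Fx.2 hd⟩])
  have u1 := card_union_add_card_inter (Fx Ω s) (Fx Ω t)
  have u2 := card_compl (Fx Ω s ∪ Fx Ω t)
  have u3 := card_le_univ (Fx Ω s ∪ Fx Ω t)
  have o1 := odd t2
  by_contra h5
  have h7 : (Fx Ω t).card = 7 := by omega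
  have r2 : (Fx Ω s ∪ Fx Ω t)ᶜ.card = 2 := by omega
  have q2 : s * t * (s * t) = 1 := by rw [mul_assoc, ← mul_assoc t, ts, mul_assoc, t2, mul_one, s2]
  have q1 : s * t ≠ 1 := fun e => st (by rw [← mul_one s, ← t2, ← mul_assoc, e, one_mul])
  have sub : Fx Ω (s * t) = (Fx Ω s ∩ Fx Ω t) ∪ (Fx Ω s ∪ Fx Ω t)ᶜ := by
    ext p
    constructor
    · intro hp
      rw [mem_Fx, mul_smul] at hp
      by_cases a : s • p = p
      · have : t • p = p := by
          have := congrArg (s • ·) hp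
          simp only [← mul_smul, ← mul_assoc, s2, one_mul] at this
          rw [this, a]
        simp [*]
      · have : t • p ≠ p := fun e => a (by rwa [e] at hp)
        simp [*]
    · intro hp
      rcases mem_union.1 hp with hp | hp
      · rw [mem_Fx, mul_smul, mem_Fx.1 (mem_inter.1 hp).2, mem_Fx.1 (mem_inter.1 hp).1]
      · have hp' := hp
        rw [mem_compl, mem_union, not_or] at hp'
        have : s • p = t • p := card_le_one.1 (show ((Fx Ω s ∪ Fx Ω t)ᶜ.erase p).card ≤ 1 by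
          rw [card_erase_of_mem hp, r2]) _ (mem_erase.2 ⟨fun e => hp'.1 (mem_Fx.2 e), by
            rw [mem_compl, mem_union, not_or]
            exact ⟨not_mem rfl hp'.1, not_mem ts.symm hp'.2⟩⟩) _
          (mem_erase.2 ⟨fun e => hp'.2 (mem_Fx.2 e), by
            rw [mem_compl, mem_union, not_or]
            exact ⟨not_mem ts hp'.1, not_mem rfl hp'.2⟩⟩)
        rw [mem_Fx, mul_smul, ← this, ← mul_smul, s2, one_smul]
  have c5 : (Fx Ω (s * t)).card = 5 := by
    rw [sub, card_union_of_disjoint (disjoint_compl_right.mono_left inter_subset_union)]; omega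
  have := h.card_Fx_eq hm q1 q2 (by omega) t1 t2 h4
  omega

theorem ord5 (h : Hy G Ω κ m) (hm : Even m) {t : G} (t1 : t ≠ 1) (t2 : t * t = 1)
    (h5 : (Fx Ω t).card = 5) : ∃ g : G, g * t = t * g ∧ orderOf g = 5 := by
  obtain ⟨a, b, c, d, hi⟩ := exists_In4 (Γ := Fx Ω t) (by omega)
  have e1 : orbit (centralizer {t} : Subgroup G) a = (Fx Ω t : Set Ω) := by
    ext y
    constructor
    · rintro ⟨g, rfl⟩
      exact smul_mem_Fx (mem_centralizer_singleton_iff.1 g.2) hi.2.1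
    · intro hy
      obtain ⟨b', c', d', hi'⟩ := in4 (by omega) hy
      obtain ⟨g, hg, e, -⟩ := h.tr_cent hm t1 t2 _ _ _ _ _ _ _ _ hi hi'
      exact ⟨⟨g, hg⟩, e⟩
  have e2 := index_stabilizer (centralizer {t} : Subgroup G) a
  rw [e1, Set.ncard_coe_finset, h5] at e2
  haveI := Fact.mk Nat.prime_five
  obtain ⟨g, hg⟩ := exists_prime_orderOf_dvd_card' (G := (centralizer {t} : Subgroup G)) 5
    (e2 ▸ index_dvd_card _)
  exact ⟨g, mem_centralizer_singleton_iff.1 g.2, by rwa [Subgroup.orderOf_coe]⟩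

end AO1

/-- PROOF.  Let `n = 13`, `t` an involution fixing four points (`exists_invol`), `Φ = Fx Ω t`,
`f = |Φ|` is odd (`modEq_fix1`), so `f ≥ 5`.  Take `x` moved by `t` and `c, d ∈ Φ`;
`S = {x, t • x, c, d}` is `t`-invariant; `exists_comm_invol` gives an involution `s ∈ D_S`
commuting with `t`, `s ≠ t`, `|Fx s| = f` (`card_Fx_eq`).  `t` acts on `Fx s` (odd size), so the
common fixed points are odd in number, contain `c, d`, and are `≤ 3` (`invol_eq`): exactly 3.  So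
`2 f - 3 ≤ 13`, `f ∈ {5, 7}`.  If `f = 7`, exactly two points are moved by both `s` and `t`; this
pair is invariant under both, so both swap it, so `s t` (an involution `≠ 1`) fixes exactly
`3 + 2 = 5` points (a point fixed by `s t` and one of `s, t` is fixed by both), but `card_Fx_eq`
gives `7`.  So `f = 5`.  `C(t)` is transitive on `Φ` (`tr_cent`), so `5 ∣ |C(t)|` (orbit-stabiliser),
take `g ∈ C(t)` of order 5 (Cauchy).  `g` permutes the 8 points outside `Φ`; it fixes one of them,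
`y` (`exists_fix1`), hence `t • y`; so it fixes `≡ 8 mod 5` of them, i.e. 3 or 8, and this set is a
union of 2-cycles of `t`, so has even size (`modEq_fix1` for `t`): 8.  So `g ≠ 1` moves at most the
5 points of `Φ`, it is a 5-cycle (`Equiv.Perm.isCycle_of_prime_order`, support exactly 5).  The
image of `G` in `Perm Ω` is 2-transitive so primitive; `S0713.result` (p = 5): it contains
`alternatingGroup Ω`; then `(1 2)(3 4)` and `(1 3)(2 4)` on four points are commuting distinct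
involutions fixing 9 points, against `invol_eq`. -/
theorem Hy.not13 (h : Hy G Ω κ m) (hm : Even m) : Fintype.card Ω ≠ 13 := by
  intro n
  obtain ⟨a, b, c, d, hD, -⟩ := exists_In4 (Γ := (univ : Finset Ω)) h.four
  obtain ⟨t, ht, t1, t2⟩ := h.exists_invol hm hD.card
  have h5 := AO1.five h hm n t1 t2 (hD.card ▸ card_le_card fun y hy => mem_Fx.2 (ht y hy))
  obtain ⟨g, gt, g5⟩ := AO1.ord5 h hm t1 t2 h5
  have c8 : (Fx Ω t)ᶜ.card = 8 := by rw [card_compl, n, h5]
  have m5 := modEq_fix1 (e := 1) Nat.prime_five (g := g) (by rw [pow_one, ← g5, pow_orderOf_eq_one])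
    (Fx Ω t)ᶜ fun x hx => mem_compl.2 (AO1.not_mem gt (mem_compl.1 hx))
  have e1 : (Fx Ω t)ᶜ ⊆ Fx Ω g := by
    have m2 := AO1.par t2 ((Fx Ω t)ᶜ ∩ Fx Ω g) fun x hx => mem_inter.2
      ⟨mem_compl.2 (AO1.not_mem rfl (mem_compl.1 (mem_inter.1 hx).1)),
        smul_mem_Fx gt.symm (mem_inter.1 hx).2⟩
    rw [inter_right_comm, disjoint_iff_inter_eq_empty.1 (disjoint_compl_left (a := Fx Ω t)),
      empty_inter] at m2
    have m6 : (Fx Ω t)ᶜ.card % 5 = ((Fx Ω t)ᶜ ∩ Fx Ω g).card % 5 := by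
      unfold Nat.ModEq at m5
      rw [m5]
      congr 2
      ext x; simp
    have m7 := card_le_card (inter_subset_left (s₁ := (Fx Ω t)ᶜ) (s₂ := Fx Ω g))
    rw [card_empty] at m2
    exact inter_eq_left.1 (eq_of_subset_of_card_le inter_subset_left (by omega))
  have hi : Function.Injective (toPermHom G Ω) := toPerm_injective
  have o5 : orderOf (toPermHom G Ω g) = 5 := by rw [orderOf_injective _ hi, g5]
  have hc : (toPermHom G Ω g).IsCycle := Equiv.Perm.isCycle_of_prime_order (o5 ▸ Nat.prime_five) (by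
    have : (toPermHom G Ω g).support ⊆ Fx Ω t := fun x hx => by
      by_contra hx'
      exact Equiv.Perm.mem_support.1 hx (mem_Fx.1 (e1 (mem_compl.2 hx')))
    have := card_le_card this
    omega)
  haveI h4 : IsMultiplyPretransitive (toPermHom G Ω).range Ω 4 := four_trans_iff.2
    fun a b c d a' b' c' d' h1 h2 h3 h4 h5 h6 k1 k2 k3 k4 k5 k6 => by
      obtain ⟨g, -, e⟩ := h.tr a b c d a' b' c' d' ⟨⟨h1, h2, h3, h4, h5, h6⟩, by simp⟩
        ⟨⟨k1, k2, k3, k4, k5, k6⟩, by simp⟩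
      exact ⟨⟨_, g, rfl⟩, e⟩
  have hA := S0713.result (toPermHom G Ω).range (isPreprimitive_of_is_two_pretransitive
    (isMultiplyPretransitive_of_le (n := 4) (by decide) (by rw [Nat.card_eq_fintype_card]; omega)))
    Nat.prime_five (by omega) (by omega) hc (hc.orderOf ▸ o5) ⟨g, rfl⟩
  obtain ⟨h1, h2, h3, h4, h5', h6⟩ := id hD
  obtain ⟨u, hu⟩ := hA (show Equiv.swap a b * Equiv.swap c d ∈ alternatingGroup Ω by
    simp [Equiv.Perm.mem_alternatingGroup, h1, h6])
  have hu' : ∀ x, u • x = Equiv.swap a b (Equiv.swap c d x) := fun x =>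
    congrArg (fun σ : Equiv.Perm Ω => σ x) hu
  have u9 : 9 ≤ (Fx Ω u).card := by
    have : ({a, b, c, d} : Finset Ω)ᶜ ⊆ Fx Ω u := fun x hx => by
      simp only [mem_compl, mem_insert, mem_singleton, not_or] at hx
      rw [mem_Fx, hu', Equiv.swap_apply_of_ne_of_ne hx.2.2.1 hx.2.2.2,
        Equiv.swap_apply_of_ne_of_ne hx.1 hx.2.1]
    have := card_le_card this
    rw [card_compl, hD.card] at this
    omega
  have := AO1.five h hm n (t := u) (fun e => h1 (by
    have := hu' a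
    rwa [e, one_smul, Equiv.swap_apply_of_ne_of_ne h2 h3, Equiv.swap_apply_left] at this))
    (hi (by
      have cm : Commute (Equiv.swap a b) (Equiv.swap c d) :=
        (Equiv.Perm.disjoint_swap_swap (by simp [*])).commute
      rw [map_mul, hu, map_one, mul_assoc, ← mul_assoc (Equiv.swap c d), ← cm.eq, mul_assoc,
        Equiv.swap_mul_self, mul_one, Equiv.swap_mul_self])) (by omega)
  omega

/-- PROOF.  `C = Q ⊓ C(t) = {1, z₀}`.  `E = {q ∈ Q | q central in Q, q² = 1}` is a `t`-invariant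
subgroup with `1, y, z, y z`, so `|E| ≥ 4`; `e ↦ e * t e t⁻¹` is a homomorphism `E → C` with kernel
in `C`, so `|E| ≤ 4`, the map is onto `C` and its kernel is `C`: so `z₀ ∈ E` and some `z₁ ∈ E` has
`t z₁ t⁻¹ = z₀ z₁`.  If `Q ≠ E`, the number of cosets `x E ≠ E` in `Q` is odd (`|Q : E|` is a power
of 2, `> 1`), so `t` fixes one (`exists_fix1` on a finset of cosets; or `exists_comm_ne` in
`N(E) ⧸ E`): `t x t⁻¹ = x e`, `e ∈ E`, `x ∉ E`.  Conjugating again, `e * t e t⁻¹ = 1`, so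
`e ∈ C`; `e = 1` gives `x ∈ C ≤ E`, `e = z₀` gives `x z₁ ∈ C ≤ E`.  Contradiction. -/
theorem card_eq_four {Q : Subgroup G} (hQ : IsPGroup 2 Q) {t : G} (t2 : t * t = 1)
    (hn : ∀ q ∈ Q, t * q * t⁻¹ ∈ Q) (hC : Nat.card ↥(Q ⊓ centralizer {t}) = 2) {y z : G}
    (hy : y ∈ Q) (hz : z ∈ Q) (y1 : y ≠ 1) (y2 : y * y = 1) (z1 : z ≠ 1) (z2 : z * z = 1)
    (yz : y ≠ z) (cy : ∀ q ∈ Q, q * y = y * q) (cz : ∀ q ∈ Q, q * z = z * q) :
    Nat.card Q = 4 := by
  obtain ⟨⟨z₀, m0⟩, n0, u0⟩ := (Nat.card_eq_two_iff' 1).1 hC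
  have hC' : ∀ x ∈ Q, t * x * t⁻¹ = x → x = 1 ∨ x = z₀ := fun x hx e => by
    by_cases h1 : x = 1
    · exact Or.inl h1
    · exact Or.inr (congrArg Subtype.val (u0 ⟨x, hx, mem_centralizer_singleton_iff.2
        (mul_inv_eq_iff_eq_mul.1 e).symm⟩ fun e => h1 (congrArg Subtype.val e)))
  have z01 : z₀ ≠ 1 := fun e => n0 (Subtype.ext e)
  have z0t : t * z₀ * t⁻¹ = z₀ := mul_inv_eq_iff_eq_mul.2 (mem_centralizer_singleton_iff.1 m0.2).symm
  have tt : ∀ x, t * (t * x * t⁻¹) * t⁻¹ = x := fun x => by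
    rw [show t * (t * x * t⁻¹) * t⁻¹ = t * t * x * (t * t)⁻¹ by group, t2]; group
  let E : Subgroup G :=
    { carrier := {e | e ∈ Q ∧ e * e = 1 ∧ ∀ q ∈ Q, q * e = e * q}
      one_mem' := ⟨Q.one_mem, mul_one _, by simp⟩
      mul_mem' := fun {a b} ha hb => ⟨mul_mem ha.1 hb.1, by
        rw [mul_assoc, ← mul_assoc b, ha.2.2 b hb.1, mul_assoc, hb.2.1, mul_one, ha.2.1],
        fun q hq => (Commute.mul_right (ha.2.2 q hq) (hb.2.2 q hq)).eq⟩
      inv_mem' := fun {a} ha => by rwa [inv_eq_of_mul_eq_one_right ha.2.1] }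
  have Et : ∀ e ∈ E, t * e * t⁻¹ ∈ E := fun e he => ⟨hn e he.1, by
    rw [conj_mul, he.2.1]; group, fun q hq => by
      rw [← tt q, conj_mul, conj_mul, he.2.2 _ (hn q hq)]⟩
  have EN : ∀ e ∈ E, t * e * t⁻¹ = e ∨ t * e * t⁻¹ = e * z₀ := fun e he => by
    have := hC' _ (mul_mem he.1 (hn e he.1)) (by rw [← conj_mul, tt, he.2.2 _ (hn e he.1)])
    refine this.imp (fun h => ?_) fun h => ?_
    · rw [← one_mul (t * e * t⁻¹), ← he.2.1, mul_assoc, h, mul_one]
    · rw [← h, ← mul_assoc, he.2.1, one_mul]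
  obtain ⟨w, hw, w1, w0⟩ : ∃ w ∈ E, w ≠ 1 ∧ w ≠ z₀ := by
    by_cases h : y = z₀
    · exact ⟨z, ⟨hz, z2, cz⟩, z1, fun e => yz (h.trans e.symm)⟩
    · exact ⟨y, ⟨hy, y2, cy⟩, y1, h⟩
  have wt : t * w * t⁻¹ = w * z₀ := (EN w hw).resolve_left fun e => (hC' w hw.1 e).elim w1 w0
  have z0E : z₀ ∈ E := (E.mul_mem_cancel_left hw).1 (wt ▸ Et w hw)
  have K : ∀ x ∈ Q, (t * x * t⁻¹ = x ∨ t * x * t⁻¹ = x * z₀) →
      x = 1 ∨ x = z₀ ∨ x = w ∨ x = z₀ * w := fun x hx e => by
    rcases e with e | e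
    · exact (hC' x hx e).imp_right Or.inl
    · have := hC' _ (mul_mem hx hw.1) (by
        rw [← conj_mul, e, wt, hw.2.2 z₀ z0E.1 |>.symm, mul_assoc, ← mul_assoc z₀, z0E.2.1, one_mul])
      refine Or.inr (Or.inr (this.imp (fun h => ?_) fun h => ?_))
      · rw [← mul_one x, ← hw.2.1, ← mul_assoc, h, one_mul]
      · rw [← h, mul_assoc, hw.2.1, mul_one]
  have QE : Q ≤ E := by
    haveI : (E.subgroupOf Q).Normal := ⟨fun e he q => by
      have : q * e * q⁻¹ = e := Subtype.ext (mul_inv_eq_iff_eq_mul.2 (he.2.2 q q.2))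
      rwa [this]⟩
    let τ : Q →* Q := MonoidHom.mk' (fun q => ⟨_, hn q q.2⟩) fun a b => Subtype.ext conj_mul.symm
    let f := QuotientGroup.map (E.subgroupOf Q) (E.subgroupOf Q) τ fun e he => Et e he
    have hf : Function.Involutive f := fun x => by
      obtain ⟨q, rfl⟩ := QuotientGroup.mk_surjective x
      exact congrArg QuotientGroup.mk (Subtype.ext (tt q))
    haveI := Fact.mk Nat.prime_two
    rcases (hQ.to_quotient (E.subgroupOf Q)).card_eq_or_dvd with h1 | h1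
    · exact subgroupOf_eq_top.1 (index_eq_one.1 h1)
    · haveI := Fintype.ofFinite (Q ⧸ E.subgroupOf Q)
      obtain ⟨b, hb, b1⟩ := Equiv.Perm.exists_fixed_point_of_prime' (p := 2) (n := 1)
        (by rwa [Nat.card_eq_fintype_card] at h1) (σ := hf.toPerm f) (Equiv.ext hf) (a := 1) (map_one f)
      obtain ⟨x, rfl⟩ := QuotientGroup.mk_surjective b
      have he : (x : G)⁻¹ * (t * x * t⁻¹) ∈ E :=
        (QuotientGroup.eq (s := E.subgroupOf Q) (a := x) (b := τ x)).1 hb.symm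
      generalize hh : (x : G)⁻¹ * (t * x * t⁻¹) = e at he
      have e1 : t * x * t⁻¹ = x * e := by rw [← hh]; group
      have e2 : t * e * t⁻¹ = e := by
        have := tt x
        rw [e1, ← conj_mul, e1, mul_assoc, mul_eq_left] at this
        rw [← one_mul (t * e * t⁻¹), ← he.2.1, mul_assoc, this, mul_one]
      refine absurd ((QuotientGroup.eq_one_iff x).2 (show (x : G) ∈ E from ?_)) b1
      rcases K x x.2 ((hC' e he.1 e2).imp (fun h => by rw [e1, h, mul_one]) fun h => by rw [e1, h])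
        with h | h | h | h <;> rw [h]
      exacts [E.one_mem, z0E, hw, mul_mem z0E hw]
  have hs : (Q : Set G) = {1, z₀, w, z₀ * w} := by
    ext x
    refine ⟨fun hx => K x hx (EN x (QE hx)), ?_⟩
    rintro (rfl | rfl | rfl | rfl)
    exacts [Q.one_mem, z0E.1, hw.1, mul_mem z0E.1 hw.1]
  rw [← SetLike.coe_sort_coe, Nat.card_coe_set_eq, hs]
  refine Set.ncard_eq_four.2 ⟨_, _, _, _, z01.symm, w1.symm, fun e => w0 ?_, w0.symm, by simpa using w1,
    by simpa using z01, rfl⟩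
  rw [← one_mul w, ← z0E.2.1, mul_assoc, ← e, mul_one]

end Cfsg.Agent.Fr4
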