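import Mathlib
import Cfsg.Agent.Fr4.Frob
import Cfsg.Agent.S0413
import Cfsg.Agent.S1664

/-! Kernel of even order, blocks with more than four points: the group is `M₂₃`.
(Read `Fr4/Frob` (API `Hy.*`), `Fr4/Base`, `Fr4/Blk`.  `κ` even gives `¬ 2 ∣ m` by `cop`.  The
blocks are `Can.bl (PP G 2)`: `(h.can_PP ..).blk`, `.blk_eq`, `.card_blk`, `.tr_blk`.) -/

set_option autoImplicit false
set_option linter.unusedSectionVars false
set_option linter.style.haveILetI false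

namespace Cfsg.Agent.Fr4

open Subgroup MulAction Cfsg.Agent.Perm Cfsg.Agent.Perm.Hall4 Finset
open scoped Pointwise

variable {G Ω : Type*} [Group G] [MulAction G Ω] [DecidableEq Ω] [Fintype Ω] [Finite G]
  [FaithfulSMul G Ω] {κ m : ℕ}

/-- PROOF.  Choose `δ ∉ Γ = FS Ω T` with `|T ⊓ stabilizer δ|` maximal, `T₁ = T ⊓ stabilizer δ < T`.
In the 2-group `T` there is `x ∈ T ∖ T₁` normalising `T₁` with `x² ∈ T₁` (normaliser condition for
nilpotent groups, then a suitable power `x ^ 2 ^ i`).  If `x` fixes `ε ∈ FS T₁ ∖ Γ` then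
`T ⊓ stabilizer ε ≥ T₁` contains `x`, so is bigger than `T₁`. -/
theorem step {T : Subgroup G} (hT : IsPGroup 2 T) (hΓ : FS Ω T ≠ univ) :
    ∃ T₁ ≤ T, ∃ x ∈ T, ∃ δ ∈ FS Ω T₁, x • δ ≠ δ ∧ (∀ y ∈ FS Ω T₁, x • y ∈ FS Ω T₁) ∧
      (∀ y ∈ FS Ω T₁, x • x • y = y) ∧ ((FS Ω T₁).filter fun y => x • y = y) = FS Ω T := by
  obtain ⟨δ, hδ, hmax⟩ := exists_max_image (FS Ω T)ᶜ (fun δ => Nat.card ↥(T ⊓ stabilizer G δ))
    (by rwa [nonempty_iff_ne_empty, Ne, compl_eq_empty_iff])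
  haveI := Fact.mk Nat.prime_two
  haveI := hT.isNilpotent
  have hlt : (T ⊓ stabilizer G δ).subgroupOf T < ⊤ := lt_top_iff_ne_top.2 fun e =>
    mem_compl.1 hδ (mem_FS.2 fun _ hu => (subgroupOf_eq_top.1 e hu).2)
  obtain ⟨y, hy, hy'⟩ := SetLike.exists_of_lt (Group.normalizerCondition_of_isNilpotent _ hlt)
  obtain ⟨e, he⟩ := hT y
  obtain ⟨i, h1, h2⟩ := Nat.exists_not_and_succ_of_not_zero_of_exists
    (p := fun i => y ^ 2 ^ i ∈ (T ⊓ stabilizer G δ).subgroupOf T) (by simpa using hy')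
    ⟨e, by rw [he]; exact one_mem _⟩
  have hn := inv_mem (pow_mem hy (2 ^ i))
  rw [pow_succ, pow_mul, sq] at h2
  generalize y ^ 2 ^ i = x at h1 h2 hn
  refine ⟨T ⊓ stabilizer G δ, inf_le_left, x, x.2, δ, mem_FS.2 fun _ hu => hu.2, fun e => h1 ⟨x.2, e⟩,
    fun _ hz => smul_mem_FS (fun u hu => ?_) hz, fun z hz => ?_, ?_⟩
  · have := (mem_normalizer_iff.1 hn ⟨u, hu.1⟩).1 hu
    rwa [inv_inv] at this
  · rw [← mul_smul]; exact mem_FS.1 hz _ h2
  · ext z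
    rw [mem_filter]
    refine ⟨fun ⟨a, b⟩ => by_contra fun c => h1 ?_, fun a => ⟨mem_FS.2 fun u hu => mem_FS.1 a u hu.1, mem_FS.1 a _ x.2⟩⟩
    rw [mem_subgroupOf, Subgroup.eq_of_le_of_card_ge (H := T ⊓ stabilizer G δ) (K := T ⊓ stabilizer G z)
      (fun u hu => ⟨hu.1, mem_FS.1 a u hu⟩) (hmax z (mem_compl.2 c))]
    exact ⟨x.2, b⟩

/-- PROOF.  `S = {a,b,c,d}`, `|B| = 7` for all blocks.  `G` maps injectively into
`Cfsg.setSystemAut 𝔅` for the Steiner system `𝔅 = Can.bl (PP G 2)` (`Blk.ex/un` give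
`Cfsg.IsSteinerSystem 4 7 𝔅`), which is simple of order `10200960 = 212520 * 48` (`S0413.result`).
`card_G`: `|G| = 212520 κ m`; `m` is odd `> 1`, `m ∣ κ - 1`, `κ > 1`, so `m ≥ 3`, `κ ≥ 4`, the index of
the image is `≤ 4`; a simple group of order `> 24` has no proper subgroup of index `≤ 4`
(`normalCore`, action on cosets).  So `G ≃* setSystemAut 𝔅`, `IsM23 G`, `S1664.result`. -/
theorem Hy.m23 (h : Hy G Ω κ m) (hk : Even κ) {S : Finset Ω} (hS : S.card = 4)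
    (h7 : (FS Ω (PP G 2 S)).card = 7) (h23 : Fintype.card Ω = 23) : Cfsg.Spor.IsoM23 G := by
  have hm : ¬ 2 ∣ m := fun d => absurd (Nat.eq_one_of_dvd_coprimes h.cop hk.two_dvd d) (by decide)
  have C := h.can_PP Nat.prime_two hm
  have st : Cfsg.IsSteinerSystem 4 7 (Can.bl (PP G 2 : Finset Ω → Subgroup G)) := by
    refine ⟨fun B hB => (C.card_blk hB ⟨S, hS, rfl⟩).trans h7, fun s hs => ?_⟩
    obtain ⟨a, b, c, d, hd, rfl⟩ := exists_D4 hs
    obtain ⟨B, hB, hi⟩ := C.blk.ex a b c d hd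
    exact ⟨B, ⟨hB, hi.sub⟩, fun B' ⟨k1, k2⟩ => C.blk.un _ k1 _ hB a b c d
      ⟨hd, k2 (by simp), k2 (by simp), k2 (by simp), k2 (by simp)⟩ hi⟩
  obtain ⟨⟨hs, hc⟩, -⟩ := S0413.result h23 st
  have inv := C.blk.inv
  generalize Can.bl (PP G 2 : Finset Ω → Subgroup G) = 𝔅 at hs hc inv
  let φ : G →* Cfsg.setSystemAut 𝔅 := (toPermHom G Ω).codRestrict _ fun g => by
    refine Set.Subset.antisymm ?_ fun B hB => ⟨g⁻¹ • B, inv _ _ hB, smul_inv_smul g B⟩
    rintro _ ⟨B, hB, rfl⟩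
    exact inv g B hB
  have inj : Function.Injective φ := fun a b e => toPerm_injective (α := G) (β := Ω) (congrArg Subtype.val e)
  have e1 := φ.range.index_mul_card
  rw [← Nat.card_congr (MonoidHom.ofInjective inj).toEquiv, h.card_G, h23, hc,
    (by decide : Nat.descFactorial 23 4 = 212520)] at e1
  have l : 12 ≤ κ * m := by
    have := h.k1
    have := h.m1
    have := Nat.le_of_dvd (by omega) h.dvd
    exact Nat.mul_le_mul (by omega : 4 ≤ κ) (by omega : 3 ≤ m)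
  have l4 : φ.range.index ≤ 4 := by nlinarith
  have top : φ.range = ⊤ := by
    rcases hs.eq_bot_or_eq_top_of_normal φ.range.normalCore inferInstance with e | e
    · have := Nat.le_of_dvd Nat.card_pos (card_dvd_of_injective (toPermHom (Cfsg.setSystemAut 𝔅) (Cfsg.setSystemAut 𝔅 ⧸ φ.range))
        (by rw [← MonoidHom.ker_eq_bot_iff, ← normalCore_eq_ker, e]))
      rw [hc, Nat.card_perm] at this
      exact absurd (this.trans (Nat.factorial_le l4)) (by decide)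
    · exact top_le_iff.1 (e ▸ φ.range.normalCore_le)
  have e := MulEquiv.ofBijective φ ⟨inj, MonoidHom.range_eq_top.1 top⟩
  exact S1664.result ⟨e.isSimpleGroup, (Nat.card_congr e.toEquiv).trans hc⟩

/-- PROOF.  `P = PP G 2 S ≠ ⊥` (`exists_PP`), `F = FS Ω P ≠ univ`, `k = |F| ≥ 5`.  For every block
`B`, `hall` applies to `stabilizer G B` on `B` (`tr_blk`; `hodd`: `g` fixes a four-set `S' ⊆ B`, `g²`
trivial on `B`; `exists_parts`: `g = u v`, `u ∈ PP 2 S'` is trivial on `B = FS (PP 2 S')`, `v` has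
odd order so is a power of `v²`, a power of `g²`).  So `k ∈ {5,6,7,11}`.  `k = 6`: `Blk.six` with an
involution `z ∈ P`.  `k` odd: for a 2-subgroup `T ≤ P` with `Γ = FS T ≠ univ` take `T₁, x, δ` from
`step`, `Γ₁ = FS T₁`.  `Γ₁` is closed: a block `B` with four points `S' ⊆ Γ₁` lies in `Γ₁`
(`T₁ ≤ PP 2 S'` by `mem_PP`).  An `x`-invariant block `B ⊆ Γ₁` through `δ` has an odd number of
fixed points (needs `x²` trivial on `B`: use `modEq_fix1` with `x ^ 2 ^ e = 1`), `≤ 3` (else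
`x ∈ PP 2 S'` fixes `B`).  `Blk.cnt` with `j = 3`: `|Γ|² - |Γ| = 6 s`.  `T = P`: `k = 5, 11` give
`6 ∣ 20`, `6 ∣ 110`.  `k = 7`: `s = 7`, and every invariant block through `δ` has exactly 3 fixed
points (`hall`, `4 ∣ #moved`), so `|Γ₁| = 7 + 2 + 7 * 2 = 23`.  If `Γ₁ ≠ univ`, repeat with
`T = T₁`: `6 ∣ 23² - 23 = 506`, false.  So `n = 23`, `m23`. -/
theorem Hy.caseB_ne (h : Hy G Ω κ m) (hk : Even κ) {S : Finset Ω} (hS : S.card = 4)
    (h5 : FS Ω (PP G 2 S) ≠ S) : Cfsg.Spor.IsoM23 G := by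
  have hm : ¬ 2 ∣ m := fun d => absurd (Nat.eq_one_of_dvd_coprimes h.cop hk.two_dvd d) (by decide)
  have C := h.can_PP Nat.prime_two hm
  have hF : FS Ω (PP G 2 S) ∈ Can.bl (PP G 2 : Finset Ω → Subgroup G) := ⟨S, hS, rfl⟩
  have k5 : 4 < (FS Ω (PP G 2 S)).card := hS ▸ card_lt_card ⟨C.sub hS, fun k => h5 (k.antisymm (C.sub hS))⟩
  have A : ∀ B ∈ Can.bl (PP G 2 : Finset Ω → Subgroup G), ∀ g : G, (∃ e, g ^ 2 ^ e = 1) → ∀ a b c d, In4 B a b c d →
      g ∈ fx G {a, b, c, d} → ∀ x ∈ B, g • x = x := fun B hB g e a b c d hi hg x hx =>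
    mem_FS.1 (C.blk_eq hB hi ▸ hx) g ((h.mem_PP Nat.prime_two hm hi.1.card.ge).2 ⟨hg, e⟩)
  have A' : ∀ B ∈ Can.bl (PP G 2 : Finset Ω → Subgroup G), ∀ g : G, 4 ≤ (B.filter fun x => g • x = x).card →
      ∀ u ∈ zpowers g, (∃ e, u ^ 2 ^ e = 1) → ∀ x ∈ B, u • x = x := fun B hB g l u hu e => by
    obtain ⟨a, b, c, d, hi⟩ := exists_In4 l
    exact A B hB u e a b c d ⟨hi.1, filter_subset _ _ hi.2.1, filter_subset _ _ hi.2.2.1,
      filter_subset _ _ hi.2.2.2.1, filter_subset _ _ hi.2.2.2.2⟩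
      fun x hx => zpow_smul_eq (mem_filter.1 (hi.sub hx)).2 hu
  have H := fun B (hB : B ∈ Can.bl (PP G 2 : Finset Ω → Subgroup G)) => hall (N := stabilizer G B) (Γ := B)
    (fun g hg x hx => mem_of_smul_eq hg hx) (C.tr_blk hB) (by rw [C.card_blk hB hF]; omega) fun g _ l g2 x hx => by
      obtain ⟨u, hu, v, ⟨i, rfl⟩, e, -, u2, o, -⟩ := exists_parts Nat.prime_two g
      have : (g ^ i) • x = x := zpow_smul_eq (g := (g ^ i) ^ 2) (zpow_smul_eq (g := g ^ 2) (by rw [sq, mul_smul, g2 x hx])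
        ⟨i, by simp only [← zpow_natCast, ← zpow_mul, mul_comm]⟩) (mem_zpowers_pow_iff.2 o.symm)
      simp only at e
      rw [e, mul_smul, this, A' B hB g l u hu u2 x hx]
  obtain ⟨z, hz, z1, z2⟩ := h.exists_PP Nat.prime_two hk.two_dvd hS
  obtain ⟨ε, hε⟩ : ∃ ε : Ω, z • ε ≠ ε := by
    by_contra! c
    exact z1 (eq_of_smul_eq_smul (α := Ω) fun x => by rw [c, one_smul])
  have K : Odd (FS Ω (PP G 2 S)).card → ∀ T ≤ PP G 2 S, FS Ω T ≠ univ → ∃ T₁ ≤ T, ∃ s,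
      (FS Ω T).card * (FS Ω T).card - (FS Ω T).card = s * 6 ∧
      ((FS Ω (PP G 2 S)).card = 7 → (FS Ω T₁).card = (FS Ω T).card + 2 + s * 2) := fun o T hT ne => by
    have p2 : ∀ u ∈ T, ∃ e, u ^ 2 ^ e = 1 := fun u hu => ((h.mem_PP Nat.prime_two hm hS.ge).1 (hT hu)).2
    obtain ⟨T₁, l, x, hx, δ, hδ, x1, x2, x3, x4⟩ := step ((h.isPGroup_PP Nat.prime_two hm hS.ge).to_le hT) ne
    obtain ⟨s, s1, s2⟩ := C.blk.cnt (Γ := FS Ω T₁) (fun B hB a b c d k k' y hy => mem_FS.2 fun u hu =>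
      A B hB u (p2 u (l hu)) a b c d k (fun w hw => mem_FS.1 (k'.sub hw) u hu) y hy) x2 x3 hδ x1 (j := 3)
      fun B hB _ d e l2 => by
        obtain ⟨i, hi⟩ := p2 x hx
        have e1 : B.card ≡ (B.filter fun y => x • y = y).card [MOD 2] := by
          convert modEq_fix1 Nat.prime_two hi B fun _ => mem_of_smul_eq e
        have e2 : ¬ 4 ≤ (B.filter fun y => x • y = y).card := fun l =>
          x1 (A' B hB x l x (mem_zpowers x) ⟨i, hi⟩ δ d)
        rw [C.card_blk hB hF, Nat.ModEq, Nat.odd_iff.1 o] at e1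
        omega
    rw [x4] at s1 s2
    refine ⟨T₁, l, s, s1, fun k7 => s2 7 fun B hB sb _ e => ?_⟩
    have c7 := (C.card_blk hB hF).trans k7
    have := (H B hB).2.1 (.inr c7) x e fun y hy => x3 y (sb hy)
    have := card_filter_add_card_filter_not (s := B) fun y => x • y = y
    exact ⟨by omega, c7⟩
  have ne : FS Ω (PP G 2 S) ≠ univ := fun e => hε (mem_FS.1 (e ▸ mem_univ ε) z hz)
  rcases (H _ hF).1 with k | k | k | k | k
  · omega
  · obtain ⟨-, -, s, s1, -⟩ := K (k ▸ by decide) _ le_rfl ne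
    rw [k] at s1; omega
  · obtain ⟨a, b, c, d, hd, rfl⟩ := exists_D4 hS
    have := mem_fx4.1 (PP_le _ _ hz)
    exact (C.blk.six (fun B hB => (C.card_blk hB hF).trans k) (by rwa [← sq]) hε
      ⟨hd, mem_Fx.2 this.1, mem_Fx.2 this.2.1, mem_Fx.2 this.2.2.1, mem_Fx.2 this.2.2.2⟩
      fun B hB e => (H B hB).2.1 (.inl ((C.card_blk hB hF).trans k)) z e fun x _ => by
        rw [← mul_smul, ← sq, z2, one_smul]).elim
  · obtain ⟨T, l, s, s1, s2⟩ := K (k ▸ by decide) _ le_rfl ne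
    have t : (FS Ω T).card = 23 := by rw [s2 k]; rw [k] at s1 ⊢; omega
    refine h.m23 hk hS k (by_contra fun c => ?_)
    obtain ⟨-, -, s, s1, -⟩ := K (k ▸ by decide) T l fun e => c (by rw [← t, e, card_univ])
    rw [t] at s1; omega
  · obtain ⟨-, -, s, s1, -⟩ := K (k ▸ by decide) _ le_rfl ne
    rw [k] at s1; omega

end Cfsg.Agent.Fr4
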