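import Mathlib
import Cfsg.Agent.Fr4.Frob

/-! Kernel of even order, `P_S = PP G 2 S` fixes exactly the four points of `S`: the set `Γ` of
fixed points of a largest five-point stabiliser `T = PP G 2 Γ` in the `P_S`.
(Read `Fr4/Frob` (API `Hy.*`), `Fr4/Base`, `Fr4/Blk`.)  Notation: `N = G_Γ` (`g • Γ = Γ`),
`T = PP G 2 Γ`, `γ = |Γ|`. -/

set_option autoImplicit false
set_option linter.unusedSectionVars false
set_option linter.style.haveILetI false

namespace Cfsg.Agent.Fr4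

open Subgroup MulAction Cfsg.Agent.Perm Cfsg.Agent.Perm.Hall4 Finset
open scoped Pointwise

variable {G Ω : Type*} [Group G] [MulAction G Ω] [DecidableEq Ω] [Fintype Ω] [Finite G]
  [FaithfulSMul G Ω] {κ m : ℕ}

variable (G) in
/-- The setting. -/
structure K4 (κ m : ℕ) (Γ : Finset Ω) : Prop where
  hy : Hy G Ω κ m
  ev : Even κ
  fs : ∀ S : Finset Ω, S.card = 4 → FS Ω (PP G 2 S) = S
  five : 5 ≤ Γ.card
  fsΓ : FS Ω (PP G 2 Γ) = Γ
  mx : ∀ Ξ : Finset Ω, Ξ.card = 5 → Nat.card (PP G 2 Ξ) ≤ Nat.card (PP G 2 Γ)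

theorem k4_card_PP (r : ℕ) (S : Finset Ω) (g : G) :
    Nat.card (PP G r S) = Nat.card (PP G r (g • S)) :=
  card_conj_eq (fun _ hu => conj_mem_PP hu g) fun u hu => by
    have := conj_mem_PP hu g⁻¹
    rwa [inv_smul_smul, inv_inv] at this

theorem k4_smul_FS (r : ℕ) (S : Finset Ω) (g : G) :
    g • FS Ω (PP G r S) = FS Ω (PP G r (g • S)) := by
  ext x
  rw [← inv_smul_mem_iff, mem_FS, mem_FS]
  constructor
  · intro k u hu
    have := conj_mem_PP hu g⁻¹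
    rw [inv_smul_smul] at this
    have := k _ this
    rwa [mul_smul, mul_smul, inv_inv, smul_inv_smul, smul_left_cancel_iff] at this
  · intro k u hu
    have := k _ (conj_mem_PP hu g)
    rwa [mul_smul, mul_smul, ← eq_inv_smul_iff] at this

theorem Hy.k4_m2 (h : Hy G Ω κ m) (hk : Even κ) : ¬ 2 ∣ m := fun k =>
  absurd (Nat.eq_one_of_dvd_coprimes h.cop hk.two_dvd k) (by decide)

/-- `fs` for all `S` by `can_PP.card_blk` and `sub`.  Choose a five-set `Ξ` (`seven_le`)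
with `|PP 2 Ξ|` maximal, `Γ = FS (PP 2 Ξ) ⊇ Ξ`; `PP 2 Γ = PP 2 Ξ` (`PP_anti`, `mem_PP`). -/
theorem Hy.exists_K4 (h : Hy G Ω κ m) (hk : Even κ) {S : Finset Ω} (hS : S.card = 4)
    (h4 : FS Ω (PP G 2 S) = S) : ∃ Γ : Finset Ω, K4 G κ m Γ := by
  have m2 := h.k4_m2 hk
  obtain ⟨Ξ, h5, mx⟩ := exists_max_image ((univ : Finset Ω).powersetCard 5)
    (fun Ξ => Nat.card (PP G 2 Ξ)) (powersetCard_nonempty.2 (by
      have := h.seven_le
      rw [card_univ]; omega))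
  rw [mem_powersetCard_univ] at h5
  have sub : Ξ ⊆ FS Ω (PP G 2 Ξ) := fun x hx => mem_FS.2 fun u hu => PP_le _ _ hu x hx
  have c5 : 5 ≤ (FS Ω (PP G 2 Ξ)).card := h5.ge.trans (card_le_card sub)
  have e : PP G 2 (FS Ω (PP G 2 Ξ)) = PP G 2 Ξ := le_antisymm (PP_anti sub) fun u hu =>
    (h.mem_PP Nat.prime_two m2 (by omega)).2 ⟨fun x hx => mem_FS.1 hx u hu,
      ((h.mem_PP Nat.prime_two m2 (by omega)).1 hu).2⟩
  refine ⟨_, h, hk, fun S' hS' => ?_, c5, by rw [e], fun Ξ' k => ?_⟩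
  · obtain ⟨g, rfl⟩ := h.tr.exists_smul hS hS'
    rw [← k4_smul_FS, h4]
  · rw [e]
    exact mx Ξ' (mem_powersetCard_univ.2 k)

namespace K4

variable {Γ : Finset Ω} (h : K4 G κ m Γ)
include h

theorem m2 : ¬ 2 ∣ m := by
  exact h.hy.k4_m2 h.ev

theorem m_odd : Odd m := by
  exact Nat.not_even_iff_odd.1 fun k => h.m2 k.two_dvd

theorem mem_P {S : Finset Ω} (h4 : 4 ≤ S.card) {g : G} :
    g ∈ PP G 2 S ↔ g ∈ fx G S ∧ ∃ e, g ^ 2 ^ e = 1 :=
  h.hy.mem_PP Nat.prime_two h.m2 h4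

/-- Conjugation (`conj_mem_PP`, `card_conj_eq`). -/
theorem smul (g : G) : K4 G κ m (g • Γ) := by
  exact ⟨h.hy, h.ev, h.fs, by rw [card_smul_finset]; exact h.five, by rw [← k4_smul_FS, h.fsΓ],
    fun Ξ k => (h.mx Ξ k).trans (k4_card_PP 2 Γ g).le⟩

/-- `PP_anti` and `mx` for a five-subset of `Ξ`. -/
theorem PP_eq {Ξ : Finset Ω} (h1 : Ξ ⊆ Γ) (h5 : 5 ≤ Ξ.card) : PP G 2 Ξ = PP G 2 Γ := by
  obtain ⟨Ξ', k, k5⟩ := exists_subset_card_eq h5
  exact (Subgroup.eq_of_le_of_card_ge (PP_anti h1)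
    ((card_le_of_le (PP_anti k)).trans (h.mx _ k5))).symm

theorem eq_of_five {Γ' : Finset Ω} (h' : K4 G κ m Γ') (h5 : 5 ≤ (Γ ∩ Γ').card) : Γ = Γ' := by
  calc Γ = FS Ω (PP G 2 Γ) := h.fsΓ.symm
    _ = FS Ω (PP G 2 Γ') := by
      rw [← h.PP_eq inter_subset_left h5, ← h'.PP_eq inter_subset_right h5]
    _ = Γ' := h'.fsΓ

/-- An element mapping five points of `Γ` into `Γ` stabilises `Γ`. -/
theorem smul_eq_of_five {g : G} {Ξ : Finset Ω} (h1 : Ξ ⊆ Γ) (h5 : 5 ≤ Ξ.card)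
    (hg : ∀ x ∈ Ξ, g • x ∈ Γ) : g • Γ = Γ := by
  refine (h.smul g).eq_of_five h (h5.trans ?_)
  rw [← card_smul_finset g]
  refine card_le_card (subset_inter (smul_finset_subset_smul_finset h1) fun y hy => ?_)
  obtain ⟨x, hx, rfl⟩ := mem_smul_finset.1 hy
  exact hg x hx

theorem conj_T {g : G} (hg : g • Γ = Γ) {x : G} (hx : x ∈ PP G 2 Γ) : g * x * g⁻¹ ∈ PP G 2 Γ := by
  have := conj_mem_PP hx g
  rwa [hg] at this

/-- An element normalising `T` stabilises `Γ = FS T`. -/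
theorem smul_eq_of_norm {g : G} (hg : ∀ x ∈ PP G 2 Γ, g⁻¹ * x * g ∈ PP G 2 Γ) : g • Γ = Γ := by
  exact smul_eq_of_mem fun x hx => h.fsΓ.subset (smul_mem_FS hg (h.fsΓ.superset hx))

/-- A `2`-element fixing five points of `Γ` lies in `T`. -/
theorem mem_T {x : G} {Δ : Finset Ω} (h1 : Δ ⊆ Γ) (h4 : Δ.card = 4) (hx : x ∈ PP G 2 Δ) {y : Ω}
    (hy : y ∈ Γ) (hy' : y ∉ Δ) (hxy : x • y = y) : x ∈ PP G 2 Γ := by
  have c : (insert y Δ).card = 5 := by rw [card_insert_of_notMem hy', h4]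
  rw [← h.PP_eq (insert_subset hy h1) c.ge, h.mem_P (by omega)]
  refine ⟨fun z hz => ?_, ((h.mem_P h4.ge).1 hx).2⟩
  rcases mem_insert.1 hz with rfl | hz
  exacts [hxy, PP_le _ _ hx z hz]

/-- `T < P_Δ` since `FS P_Δ = Δ ≠ Γ`; normaliser condition in the 2-group `P_Δ`, and a suitable
power. -/
theorem exists_x {Δ : Finset Ω} (h1 : Δ ⊆ Γ) (h4 : Δ.card = 4) :
    ∃ x ∈ PP G 2 Δ, x • Γ = Γ ∧ x ∉ PP G 2 Γ ∧ x * x ∈ PP G 2 Γ := by
  classical
  haveI := Fact.mk Nat.prime_two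
  have le : PP G 2 Γ ≤ PP G 2 Δ := PP_anti h1
  haveI := (h.hy.isPGroup_PP Nat.prime_two h.m2 h4.ge).isNilpotent
  have lt : (PP G 2 Γ).subgroupOf (PP G 2 Δ) < ⊤ := lt_top_iff_ne_top.2 fun e => by
    have e2 := h.fsΓ
    rw [le_antisymm le (subgroupOf_eq_top.1 e), h.fs Δ h4] at e2
    have := h.five
    rw [← e2] at this
    omega
  obtain ⟨y, hy, hy'⟩ := SetLike.exists_of_lt (normalizerCondition_of_isNilpotent _ lt)
  have st : (y : G) ∈ stabilizer G Γ := h.smul_eq_of_norm fun x hx =>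
    (mem_normalizer_iff''.1 hy ⟨x, le hx⟩).1 hx
  have ex : ∃ k, (y : G) ^ 2 ^ k ∈ PP G 2 Γ := by
    obtain ⟨k, e⟩ := ((h.mem_P h4.ge).1 y.2).2
    exact ⟨k, e ▸ one_mem _⟩
  have k0 : Nat.find ex ≠ 0 := fun e => hy' (by
    have := Nat.find_spec ex
    rwa [e, pow_zero, pow_one] at this)
  obtain ⟨k, hk⟩ := Nat.exists_eq_succ_of_ne_zero k0
  refine ⟨(y : G) ^ 2 ^ k, pow_mem y.2 _, pow_mem st _, Nat.find_min ex (by omega), ?_⟩
  have := Nat.find_spec ex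
  rwa [hk, pow_succ, pow_mul, sq] at this

/-- `gleason` with `exists_x`, `mem_T`. -/
theorem tr : Tr4 (stabilizer G Γ) Γ := by
  refine gleason (fun g hg x hx => mem_of_smul_eq hg hx) h.five Nat.prime_two fun S hS h4 => ?_
  obtain ⟨x, hx, st, hT, -⟩ := h.exists_x hS h4
  obtain ⟨e, he⟩ := ((h.mem_P h4.ge).1 hx).2
  exact ⟨x, st, e, he, fun y hy => ⟨fun k => by_contra fun n => hT (h.mem_T hS h4 hx hy n k),
    PP_le _ _ hx y⟩⟩

/-- `modEq_fix1` for `x` of `exists_x`, which fixes exactly four points of `Γ`. -/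
theorem even : Even Γ.card := by
  obtain ⟨S, hS, h4⟩ := exists_subset_card_eq (n := 4) (s := Γ) (by have := h.five; omega)
  obtain ⟨x, hx, st, hT, -⟩ := h.exists_x hS h4
  obtain ⟨e, he⟩ := ((h.mem_P h4.ge).1 hx).2
  have k : Γ.card ≡ S.card [MOD 2] := by
    convert modEq_fix1 Nat.prime_two he Γ fun y hy => mem_of_smul_eq st hy
    ext y
    simp only [mem_filter]
    exact ⟨fun k => ⟨hS k, PP_le _ _ hx y k⟩,
      fun k => by_contra fun n => hT (h.mem_T hS h4 hx k.1 n k.2)⟩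
  rw [h4] at k
  exact Nat.even_iff.2 k

/-- `modEq_fix` for `P_S`, which fixes exactly four points. -/
theorem even_card : Even (Fintype.card Ω) := by
  obtain ⟨S, -, h4⟩ := exists_subset_card_eq (n := 4) (s := Γ) (by have := h.five; omega)
  have k : (univ : Finset Ω).card ≡ (FS Ω (PP G 2 S)).card [MOD 2] :=
    modEq_fix Nat.prime_two (h.hy.isPGroup_PP Nat.prime_two h.m2 h4.ge) univ fun _ _ _ _ => mem_univ _
  rw [h.fs S h4, h4] at k
  exact Nat.even_iff.2 k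

/-- An `r`-element (`r` odd) of `N` centralising `x` modulo `T` centralises an element of the coset
`T x` (`exists_comm` on the coset, which has `|T| = 2 ^ i` elements). -/
theorem comm_coset {r e : ℕ} (hr : r.Prime) (r2 : r ≠ 2) {a x : G} (ha : a ^ r ^ e = 1)
    (haΓ : a • Γ = Γ) (hc : a * x * a⁻¹ * x⁻¹ ∈ PP G 2 Γ) :
    ∃ τ ∈ PP G 2 Γ, a * (τ * x) = τ * x * a := by
  classical
  haveI := Fintype.ofFinite G
  haveI := Fact.mk Nat.prime_two
  obtain ⟨i, hi⟩ := (h.hy.isPGroup_PP Nat.prime_two h.m2 (S := Γ)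
    (by have := h.five; omega)).exists_card_eq
  obtain ⟨_, k, e⟩ := exists_comm hr ha ((univ.filter (· ∈ PP G 2 Γ)).image (· * x)) (by
    intro y hy
    obtain ⟨τ, hτ, rfl⟩ := mem_image.1 hy
    exact mem_image.2 ⟨_, mem_filter.2 ⟨mem_univ _,
      mul_mem (h.conj_T haΓ (mem_filter.1 hτ).2) hc⟩, by group⟩) (by
    rw [card_image_of_injective _ (mul_left_injective x), ← Fintype.card_subtype,
      ← Nat.card_eq_fintype_card, hi]
    exact fun k => r2 ((Nat.prime_dvd_prime_iff_eq hr Nat.prime_two).1 (hr.dvd_of_dvd_pow k)))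
  obtain ⟨τ, hτ, rfl⟩ := mem_image.1 k
  exact ⟨τ, (mem_filter.1 hτ).2, e⟩

/-- Elements of odd order of `K_Δ` stabilise `Γ` (`KK_dec`: they centralise `T ≤ P_Δ`). -/
theorem smul_eq_of_odd {Δ : Finset Ω} (h1 : Δ ⊆ Γ) (h4 : Δ.card = 4) {v : G}
    (hv : v ∈ KK G κ Δ) (ho : Odd (orderOf v)) : v • Γ = Γ := by
  obtain ⟨u, hu, w, -, e1, e2, cw, hw⟩ := h.hy.KK_dec Nat.prime_two h.m2 h4.ge hv
  obtain ⟨e, he⟩ := ((h.mem_P h4.ge).1 hu).2
  have c : Commute v w⁻¹ := Commute.inv_right (by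
    change v * w = w * v
    conv_lhs => rw [e2]
    conv_rhs => rw [e1]
    rw [mul_assoc])
  have d := c.orderOf_mul_dvd_mul_orderOf
  rw [show v * w⁻¹ = u by rw [e1, mul_inv_cancel_right], orderOf_inv] at d
  have u1 : u = 1 := orderOf_eq_one_iff.1 (Nat.eq_one_of_dvd_coprimes
    ((Nat.Coprime.mul_left ho.coprime_two_right cw).pow_right e) d (orderOf_dvd_of_pow_eq_one he))
  rw [u1, one_mul] at e1
  refine h.smul_eq_of_norm fun x hx => ?_
  rwa [mul_assoc, e1, ← hw x (PP_anti h1 hx), inv_mul_cancel_left]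

/-- A `3`-element of `N` acting as `(a b c)(d)`: take `g ∈ N` acting so (`tr`), `exists_parts` for
`r = 3`: `g = u v`, `v` has order prime to 3 and is a power of `g`, so acts trivially on
`{a,b,c,d}`. -/
theorem exists_three {a b c d : Ω} (hi : In4 Γ a b c d) :
    ∃ u : G, u • Γ = Γ ∧ (∃ e, u ^ 3 ^ e = 1) ∧ u • a = b ∧ u • b = c ∧ u • c = a ∧ u • d = d := by
  obtain ⟨⟨ab, ac, ad, bc, bd, cd⟩, ha, hb, hc, hd⟩ := id hi
  obtain ⟨g, hg, e1, e2, e3, e4⟩ := h.tr a b c d b c a d hi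
    ⟨⟨bc, ab.symm, bd, ac.symm, cd, ad⟩, hb, hc, ha, hd⟩
  obtain ⟨u, hu, v, ⟨k, rfl⟩, e, -, u3, cv, -⟩ := exists_parts Nat.prime_three g
  have g3 : g ^ 3 ∈ fx G {a, b, c, d} := mem_fx4.2 (by simp [pow_three, mul_smul, e1, e2, e3, e4])
  have v3 : (g ^ k) ^ 3 ∈ fx G {a, b, c, d} := by
    rw [← zpow_natCast, ← zpow_mul, mul_comm, zpow_mul, zpow_natCast]
    exact zpow_mem g3 k
  obtain ⟨f1, f2, f3, f4⟩ := mem_fx4.1 (zpowers_le.2 v3 (mem_zpowers_pow_iff.2 cv.symm))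
  have t : ∀ x : Ω, g ^ k • x = x → u • x = g • x := fun x hx => by
    conv_rhs => rw [e, mul_smul]
    exact congrArg _ hx.symm
  exact ⟨u, zpowers_le.2 hg hu, u3, (t a f1).trans e1, (t b f2).trans e2, (t c f3).trans e3,
    (t d f4).trans e4⟩

end K4

end Cfsg.Agent.Fr4
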